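import Mathlib
import Cfsg.Agent.BaumannBlock.Natural

/-!
Facts on the natural module of the derived group of `SL₂` over a field of characteristic three, used for
exceptional blocks: the invariant alternating form is the determinant, its additive isometries are linear,
a subgroup of odd order normalized by the derived group is trivial, and quadratic semilinear normalizing
maps are linear.
-/

set_option autoImplicit false

open scoped MatrixGroups commutatorElement

namespace CfsgLib.BaumannBlock.CentModule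

variable {F : Type*} [Field F]

/-- The determinant of two vectors of `F²`. -/
def det2 (x y : Fin 2 → F) : F := x 0 * y 1 - x 1 * y 0

/-- The element of order four anti-commuting with `weylSL`, in characteristic three. -/
def quatJ [CharP F 3] : SL(2, F) := ⟨!![-1, 1; 1, 1], by
  have h3 : (3 : F) = 0 := by exact_mod_cast CharP.cast_eq_zero F 3
  simp [Matrix.det_fin_two]
  linear_combination -h3⟩

theorem quatJ_coe [CharP F 3] : ((quatJ : SL(2, F)) : Matrix (Fin 2) (Fin 2) F) = !![-1, 1; 1, 1] := rfl

theorem three_eq_zero [CharP F 3] : (3 : F) = 0 := by exact_mod_cast CharP.cast_eq_zero F 3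

theorem one_ne_neg_one [CharP F 3] : (1 : F) ≠ -1 := by
  intro h
  have h3 := three_eq_zero (F := F)
  exact one_ne_zero (α := F) (by linear_combination h3 - h)

theorem quatJ_mem [CharP F 3] : (quatJ : SL(2, F)) ∈ commutator SL(2, F) := by
  have h3 := three_eq_zero (F := F)
  have h : (quatJ : SL(2, F)) = ⁅upperUni (1 : F), weylSL⁆ := by
    have hw : ((weylSL : SL(2, F))⁻¹ : SL(2, F)).1 = !![0, -1; 1, 0] := by
      rw [Matrix.SpecialLinearGroup.coe_inv, weylSL_coe, Matrix.adjugate_fin_two_of, neg_neg]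
    have hu : ((upperUni (1 : F) : SL(2, F))⁻¹ : SL(2, F)).1 = !![1, -1; 0, 1] := by
      rw [Matrix.SpecialLinearGroup.coe_inv, upperUni_coe, Matrix.adjugate_fin_two_of, neg_zero]
    apply Subtype.ext
    rw [commutatorElement_def, Matrix.SpecialLinearGroup.coe_mul, Matrix.SpecialLinearGroup.coe_mul,
      Matrix.SpecialLinearGroup.coe_mul, hw, hu, upperUni_coe, weylSL_coe, quatJ_coe]
    ext i j
    fin_cases i <;> fin_cases j <;>
      simp [Matrix.mul_apply, Fin.sum_univ_two]
    linear_combination -h3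
  rw [h]
  exact Subgroup.commutator_mem_commutator (Subgroup.mem_top _) (Subgroup.mem_top _)

theorem weylSL_mem [CharP F 3] : (weylSL : SL(2, F)) ∈ commutator SL(2, F) := by
  have h3 := three_eq_zero (F := F)
  have hN : (commutator SL(2, F)).Normal := inferInstance
  have h := hN.conj_mem _ (quatJ_mem (F := F)) (upperUni (1 : F))
  have hu : ((upperUni (1 : F) : SL(2, F))⁻¹ : SL(2, F)).1 = !![1, -1; 0, 1] := by
    rw [Matrix.SpecialLinearGroup.coe_inv, upperUni_coe, Matrix.adjugate_fin_two_of, neg_zero]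
  have h' : upperUni (1 : F) * quatJ * (upperUni (1 : F))⁻¹ = (weylSL : SL(2, F))⁻¹ := by
    apply Subtype.ext
    rw [Matrix.SpecialLinearGroup.coe_mul, Matrix.SpecialLinearGroup.coe_mul, hu,
      Matrix.SpecialLinearGroup.coe_inv, weylSL_coe, Matrix.adjugate_fin_two_of, upperUni_coe, quatJ_coe]
    ext i j
    fin_cases i <;> fin_cases j <;>
      simp [Matrix.mul_apply, Fin.sum_univ_two] <;> linear_combination h3
  rw [h'] at h
  simpa using inv_mem h

theorem weylSL_sq : (weylSL : SL(2, F)) * weylSL = -1 := by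
  apply Subtype.ext
  rw [Matrix.SpecialLinearGroup.coe_mul, weylSL_coe]
  ext i j
  fin_cases i <;> fin_cases j <;> simp [Matrix.mul_apply, Fin.sum_univ_two]

theorem quatJ_sq [CharP F 3] : (quatJ : SL(2, F)) * quatJ = -1 := by
  have h3 := three_eq_zero (F := F)
  apply Subtype.ext
  rw [Matrix.SpecialLinearGroup.coe_mul, quatJ_coe]
  ext i j
  fin_cases i <;> fin_cases j <;> simp [Matrix.mul_apply, Fin.sum_univ_two] <;> linear_combination h3

theorem weylSL_mul_quatJ [CharP F 3] : (weylSL : SL(2, F)) * quatJ = -(quatJ * weylSL) := by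
  have h3 := three_eq_zero (F := F)
  apply Subtype.ext
  rw [Matrix.SpecialLinearGroup.coe_mul, Matrix.SpecialLinearGroup.coe_neg,
    Matrix.SpecialLinearGroup.coe_mul, weylSL_coe, quatJ_coe]
  ext i j
  fin_cases i <;> fin_cases j <;> simp [Matrix.mul_apply, Fin.sum_univ_two]

theorem neg_one_ne_one [CharP F 3] : (-1 : SL(2, F)) ≠ 1 := by
  intro h
  have h1 := congrArg (fun g : SL(2, F) => (g : Matrix (Fin 2) (Fin 2) F) 0 0) h
  exact one_ne_neg_one (F := F) (by simpa using h1.symm)

theorem commutator_weyl_quatJ [CharP F 3] : ⁅(weylSL : SL(2, F)), (quatJ : SL(2, F))⁆ = -1 := by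
  rw [commutatorElement_def, weylSL_mul_quatJ, neg_mul, mul_inv_cancel_right, neg_mul, mul_inv_cancel]

theorem neg_one_mem [CharP F 3] : (-1 : SL(2, F)) ∈ commutator SL(2, F) := by
  rw [← weylSL_sq]; exact mul_mem weylSL_mem weylSL_mem

theorem neg_mulVec (x : Fin 2 → F) : ((-1 : SL(2, F)) : Matrix (Fin 2) (Fin 2) F).mulVec x = -x := by
  simp [Matrix.neg_mulVec]

theorem mulVec_injective {g h : SL(2, F)}
    (e : ∀ x, (g : Matrix (Fin 2) (Fin 2) F).mulVec x = (h : Matrix (Fin 2) (Fin 2) F).mulVec x) : g = h :=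
  Subtype.ext (Matrix.ext_of_mulVec_single fun i => e _)

theorem det2_mulVec (g : SL(2, F)) (x y : Fin 2 → F) :
    det2 ((g : Matrix (Fin 2) (Fin 2) F).mulVec x) ((g : Matrix (Fin 2) (Fin 2) F).mulVec y) = det2 x y := by
  have hg : (g : Matrix (Fin 2) (Fin 2) F) 0 0 * (g : Matrix (Fin 2) (Fin 2) F) 1 1 -
      (g : Matrix (Fin 2) (Fin 2) F) 0 1 * (g : Matrix (Fin 2) (Fin 2) F) 1 0 = 1 := by
    have h := g.2; rwa [Matrix.det_fin_two] at h
  simp [det2, Matrix.mulVec, dotProduct, Fin.sum_univ_two]
  linear_combination (x 0 * y 1 - x 1 * y 0) * hg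

/-- A vector on which all determinants vanish is zero. -/
theorem eq_zero_of_det2 {x : Fin 2 → F} (h : ∀ y, det2 x y = 0) : x = 0 := by
  funext i
  have h0 := h ![0, 1]
  have h1 := h ![1, 0]
  simp [det2] at h0 h1
  fin_cases i <;> simp [h0, h1]

/-- An element of a field of order greater than three has some `t ≠ 0` with `t² ≠ 1`, otherwise there are
three elements. -/
theorem cases_of_small (h : ¬ ∃ t : F, t ≠ 0 ∧ t * t ≠ 1) (x : F) : x = 0 ∨ x = 1 ∨ x = -1 := by
  push Not at h
  by_cases hx : x = 0
  · exact Or.inl hx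
  · exact Or.inr (mul_self_eq_one_iff.1 (h x hx))

/-- An alternating biadditive map on `F²` invariant under the derived group of `SL₂` factors through the
determinant. -/
theorem exists_det_factor [CharP F 3] {M : Type*} [CommGroup M] (b : (Fin 2 → F) → (Fin 2 → F) → M)
    (hl : ∀ x x' y, b (x + x') y = b x y * b x' y) (hr : ∀ x y y', b x (y + y') = b x y * b x y')
    (halt : ∀ x, b x x = 1)
    (hinv : ∀ g ∈ commutator SL(2, F), ∀ x y,
      b ((g : Matrix (Fin 2) (Fin 2) F).mulVec x) ((g : Matrix (Fin 2) (Fin 2) F).mulVec y) = b x y) :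
    ∃ f : F → M, ∀ x y, b x y = f (det2 x y) := by
  have h3 := three_eq_zero (F := F)
  have hz : ∀ y, b 0 y = 1 := fun y => by
    have h := hl 0 0 y
    rw [add_zero] at h
    exact left_eq_mul.1 h
  have hzr : ∀ x, b x 0 = 1 := fun x => by
    have h := hr x 0 0
    rw [add_zero] at h
    exact left_eq_mul.1 h
  have hnl : ∀ x y, b (-x) y = (b x y)⁻¹ := fun x y => by
    refine eq_inv_of_mul_eq_one_left ?_
    rw [← hl, neg_add_cancel, hz]
  have hnr : ∀ x y, b x (-y) = (b x y)⁻¹ := fun x y => by
    refine eq_inv_of_mul_eq_one_left ?_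
    rw [← hr, neg_add_cancel, hzr]
  have hsk : ∀ x y, b y x = (b x y)⁻¹ := fun x y => by
    have h := halt (x + y)
    rw [hl, hr, hr, halt, halt, one_mul, mul_one] at h
    exact eq_inv_of_mul_eq_one_right h
  have hexp : ∀ x y, b x y ^ 3 = 1 := fun x y => by
    have hx : x + x + x = 0 := by
      funext i
      show x i + x i + x i = 0
      linear_combination x i * h3
    rw [pow_succ, pow_two, ← hl, ← hl, hx, hz]
  have hsplit : ∀ x : Fin 2 → F, x = ![x 0, 0] + ![0, x 1] := fun x => by
    funext i; fin_cases i <;> simp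
  let g : F → F → M := fun a c => b ![a, 0] ![0, c]
  have hneg0 : ∀ a : F, (![-a, 0] : Fin 2 → F) = -![a, 0] := fun a => by
    funext i; fin_cases i <;> simp
  have hneg1 : ∀ a : F, (![0, -a] : Fin 2 → F) = -![0, a] := fun a => by
    funext i; fin_cases i <;> simp
  have hz0 : (![0, 0] : Fin 2 → F) = 0 := by
    funext i; fin_cases i <;> simp
  have key : (∀ a c : F, b ![a, 0] ![c, 0] = 1) ∧ ∀ a c : F, g a c = g (a * c) 1 := by
    by_cases hbig : ∃ t : F, t ≠ 0 ∧ t * t ≠ 1
    · have main : ∀ s a c : F, b ![s * a, 0] ![s * c, 0] = 1 ∧ g (s * a) c = g (s * c) a := by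
        intro s a c
        have step : ∀ s : F, b ![s * a, 0] ![s * c, 0] * g (s * a) c * (g (s * c) a)⁻¹ = 1 := by
          intro s
          have h := hinv _ (upperUni_mem_commutator hbig s).1 ![0, a] ![0, c]
          have e : ∀ z : F, (upperUni s : SL(2, F)).1.mulVec ![0, z] = ![s * z, 0] + ![0, z] := fun z => by
            funext i
            fin_cases i <;> simp [upperUni, Matrix.mulVec, dotProduct, Fin.sum_univ_two]
          rw [e, e, hl, hr, hr, hsk ![s * c, 0] ![0, a], ← mul_assoc] at h
          exact mul_eq_right.1 h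
        have h1 := step s
        have h2 := step (-s)
        rw [neg_mul, neg_mul] at h2
        simp only [g, hneg0, hnl, hnr, inv_inv] at h1 h2
        set L := b ![s * a, 0] ![s * c, 0] with hL
        have hLL : L * L = 1 := by
          calc L * L = L * b ![s * a, 0] ![0, c] * (b ![s * c, 0] ![0, a])⁻¹ *
              (L * (b ![s * a, 0] ![0, c])⁻¹ * b ![s * c, 0] ![0, a]) := by
                simp [mul_comm, mul_left_comm, mul_assoc]
            _ = 1 := by rw [h1, h2, one_mul]
        have hL1 : L = 1 := by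
          have := hexp ![s * a, 0] ![s * c, 0]
          rw [← hL, pow_succ, pow_two, hLL, one_mul] at this
          exact this
        rw [hL1, one_mul] at h1
        exact ⟨hL1, mul_inv_eq_one.1 h1⟩
      refine ⟨fun a c => ?_, fun a c => ?_⟩
      · simpa using (main 1 a c).1
      · simpa using (main a 1 c).2
    · have hsmall := cases_of_small hbig
      refine ⟨fun a c => ?_, fun a c => ?_⟩
      · rcases hsmall a with rfl | rfl | rfl <;> rcases hsmall c with rfl | rfl | rfl <;>
          simp only [hz0, hz, hzr, hneg0, hnl, hnr, halt, inv_one]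
      · show b ![a, 0] ![0, c] = b ![a * c, 0] ![0, 1]
        rcases hsmall c with rfl | rfl | rfl
        · simp [hz0, hz, hzr]
        · rw [mul_one]
        · rw [mul_neg_one, hneg0, hneg1, hnl, hnr]
  refine ⟨fun x => g x 1, fun x y => ?_⟩
  have hline : ∀ a c : F, b ![0, a] ![0, c] = 1 := fun a c => by
    have h := hinv _ weylSL_mem ![0, a] ![0, c]
    have e : ∀ z : F, (weylSL : SL(2, F)).1.mulVec ![0, z] = ![z, 0] := fun z => by
      funext i; fin_cases i <;> simp [weylSL, Matrix.mulVec, dotProduct, Fin.sum_univ_two]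
    rw [e, e, key.1] at h
    exact h.symm
  have hadd : ∀ u v : F, g (u + v) 1 = g u 1 * g v 1 := fun u v => by
    show b ![u + v, 0] ![0, 1] = b ![u, 0] ![0, 1] * b ![v, 0] ![0, 1]
    rw [← hl]
    congr 1
    funext i; fin_cases i <;> simp
  have hneg : ∀ u : F, g (-u) 1 = (g u 1)⁻¹ := fun u => by
    show b ![-u, 0] ![0, 1] = _
    rw [hneg0, hnl]
  conv_lhs => rw [hsplit x, hsplit y, hl, hr, hr, key.1, hline, hsk ![y 0, 0] ![0, x 1], one_mul, mul_one]
  show g (x 0) (y 1) * (g (y 0) (x 1))⁻¹ = g (det2 x y) 1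
  rw [key.2 (x 0), key.2 (y 0), ← hneg, ← hadd]
  congr 1
  simp [det2]; ring

/-- An additive map preserving the determinant is the action of an element of `SL₂`. -/
theorem exists_sl_of_det2 [Finite F] (d : (Fin 2 → F) →+ (Fin 2 → F)) (h : ∀ x y, det2 (d x) (d y) = det2 x y) :
    ∃ g : SL(2, F), ∀ x, d x = (g : Matrix (Fin 2) (Fin 2) F).mulVec x := by
  have hinj : Function.Injective d := by
    rw [injective_iff_map_eq_zero]
    intro x hx
    exact eq_zero_of_det2 fun y => by rw [← h x y, hx]; simp [det2]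
  have hsurj : Function.Surjective d := Finite.injective_iff_surjective.1 hinj
  have hlin : ∀ (l : F) (x : Fin 2 → F), d (l • x) = l • d x := by
    intro l x
    refine sub_eq_zero.1 (eq_zero_of_det2 fun y => ?_)
    obtain ⟨z, rfl⟩ := hsurj y
    have h1 := h (l • x) z
    have h2 := h x z
    simp [det2] at h1 h2 ⊢
    linear_combination h1 - l * h2
  let L : (Fin 2 → F) →ₗ[F] (Fin 2 → F) := { toFun := d, map_add' := d.map_add, map_smul' := hlin }
  have hM : ∀ x, (LinearMap.toMatrix' L).mulVec x = d x := fun x => LinearMap.toMatrix'_mulVec L x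
  refine ⟨⟨LinearMap.toMatrix' L, ?_⟩, fun x => (hM x).symm⟩
  have h1 := h ![1, 0] ![0, 1]
  rw [← hM, ← hM] at h1
  rw [Matrix.det_fin_two]
  simp [-LinearMap.toMatrix'_mulVec, -LinearMap.toMatrix'_apply, det2, Matrix.mulVec, dotProduct, Fin.sum_univ_two] at h1
  linear_combination h1

/-- Two subgroups of `F²` spanning it on which the determinant pairing vanishes: one is trivial. -/
theorem eq_bot_or_of_det2 (X Y : AddSubgroup (Fin 2 → F)) (hsup : X ⊔ Y = ⊤)
    (horth : ∀ x ∈ X, ∀ y ∈ Y, det2 x y = 0) : X = ⊥ ∨ Y = ⊥ := by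
  by_contra hne
  push Not at hne
  obtain ⟨x₀, hx₀, hx₀0⟩ := (AddSubgroup.ne_bot_iff_exists_ne_zero.1 hne.1)|> fun ⟨a, ha⟩ =>
    (⟨(a : Fin 2 → F), a.2, fun h => ha (Subtype.ext h)⟩ : ∃ a, a ∈ X ∧ a ≠ 0)
  obtain ⟨y₀, hy₀, hy₀0⟩ := (AddSubgroup.ne_bot_iff_exists_ne_zero.1 hne.2)|> fun ⟨a, ha⟩ =>
    (⟨(a : Fin 2 → F), a.2, fun h => ha (Subtype.ext h)⟩ : ∃ a, a ∈ Y ∧ a ≠ 0)
  have hann : ∀ {u v w : Fin 2 → F}, u ≠ 0 → det2 v u = 0 → det2 w u = 0 → det2 v w = 0 := by
    intro u v w hu hv hw
    simp [det2] at hv hw ⊢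
    by_cases h0 : u 0 = 0
    · have h1 : u 1 ≠ 0 := fun h1 => hu (funext fun i => by fin_cases i <;> simp [h0, h1])
      simp [h0] at hv hw
      simp [hv.resolve_right h1, hw.resolve_right h1]
    · apply mul_left_cancel₀ h0
      linear_combination w 0 * hv - v 0 * hw
  refine hx₀0 (eq_zero_of_det2 fun z => ?_)
  have hz : z ∈ X ⊔ Y := hsup ▸ AddSubgroup.mem_top z
  obtain ⟨a, ha, c, hc, rfl⟩ := AddSubgroup.mem_sup.1 hz
  have h1 : det2 x₀ a = 0 := hann hy₀0 (horth x₀ hx₀ y₀ hy₀) (horth a ha y₀ hy₀)
  have h2 := horth x₀ hx₀ c hc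
  simp [det2] at h1 h2 ⊢
  linear_combination h1 + h2

/-- A subgroup of odd order normalized by the derived group of `SL₂` is trivial. -/
theorem eq_bot_of_odd [CharP F 3] (S : Subgroup SL(2, F))
    (hn : ∀ g ∈ commutator SL(2, F), ∀ s ∈ S, g * s * g⁻¹ ∈ S) (hodd : ∀ s ∈ S, Odd (orderOf s)) :
    S = ⊥ := by
  have h3 := three_eq_zero (F := F)
  refine (Subgroup.eq_bot_iff_forall _).2 fun s hs => ?_
  -- elements of order four do not lie in `S`
  have hnegS : (-1 : SL(2, F)) ∉ S := by
    intro hm
    obtain ⟨k, hk⟩ := hodd _ hm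
    have h := pow_orderOf_eq_one (-1 : SL(2, F))
    rw [hk, Odd.neg_one_pow ⟨k, rfl⟩] at h
    exact neg_one_ne_one h
  have hfour : ∀ x ∈ S, x * x = -1 → False := fun x hx hxx => hnegS (hxx ▸ mul_mem hx hx)
  by_cases hbig : ∃ t : F, t ≠ 0 ∧ t * t ≠ 1
  · obtain ⟨t, ht, htt⟩ := id hbig
    have hu := fun a => (upperUni_mem_commutator hbig a).1
    have hl := fun a => (upperUni_mem_commutator hbig a).2
    -- a nontrivial upper unitriangular element leads to an element of order four
    have hup : ∀ b : F, b ≠ 0 → upperUni b ∉ S := by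
      intro b hb hbS
      have hlow : (lowerUni (-b⁻¹) : SL(2, F)) ∈ S := by
        have h := hn _ (mul_mem (mul_mem (hu b) (hl (-b⁻¹))) (hu b)) _ hbS
        convert h using 1
        rw [eq_mul_inv_iff_mul_eq]
        apply Subtype.ext
        simp only [Matrix.SpecialLinearGroup.coe_mul, upperUni_coe, lowerUni_coe]
        ext i j
        fin_cases i <;> fin_cases j <;> simp [Matrix.mul_apply, Fin.sum_univ_two, hb] <;> field_simp <;> ring
      refine hfour _ (mul_mem (mul_mem hbS hlow) hbS) ?_
      apply Subtype.ext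
      simp only [Matrix.SpecialLinearGroup.coe_mul, upperUni_coe, lowerUni_coe,
        Matrix.SpecialLinearGroup.coe_neg, Matrix.SpecialLinearGroup.coe_one]
      ext i j
      fin_cases i <;> fin_cases j <;> simp [Matrix.mul_apply, Fin.sum_univ_two, hb] <;> field_simp <;> ring
    have hcomm : ∀ g ∈ commutator SL(2, F), ∀ x ∈ S, g * x * g⁻¹ * x⁻¹ ∈ S := fun g hg x hx =>
      mul_mem (hn g hg x hx) (inv_mem hx)
    have htri : ∀ x ∈ S, x.1 1 0 = 0 → x = 1 := by
      intro x hx h10
      have hdet : x.1 0 0 * x.1 1 1 = 1 := by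
        have := x.2; rw [Matrix.det_fin_two, h10, mul_zero, sub_zero] at this; exact this
      have hc := hcomm _ (hu 1) x hx
      have e : upperUni (1 : F) * x * (upperUni 1)⁻¹ * x⁻¹ = upperUni (1 - x.1 0 0 * x.1 0 0) := by
        rw [mul_inv_eq_iff_eq_mul, mul_inv_eq_iff_eq_mul]
        apply Subtype.ext
        simp only [Matrix.SpecialLinearGroup.coe_mul, upperUni_coe]
        ext i j
        fin_cases i <;> fin_cases j <;> simp [Matrix.mul_apply, Matrix.vecMul, dotProduct, Fin.sum_univ_two, h10]
        linear_combination (x.1 0 0) * hdet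
      rw [e] at hc
      have ha : x.1 0 0 * x.1 0 0 = 1 := by
        by_contra hne
        exact hup _ (fun h => hne (sub_eq_zero.1 h).symm) hc
      rcases mul_self_eq_one_iff.1 ha with ha1 | ha1
      · have hd : x.1 1 1 = 1 := by rw [ha1, one_mul] at hdet; exact hdet
        have hx' : x = upperUni (x.1 0 1) := by
          apply Subtype.ext; ext i j; fin_cases i <;> fin_cases j <;> simp [upperUni, h10, ha1, hd]
        by_contra hne
        refine hup _ (fun h0 => hne ?_) (hx' ▸ hx)
        rw [hx', h0]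
        apply Subtype.ext; ext i j; fin_cases i <;> fin_cases j <;> simp [upperUni]
      · exfalso
        have hd : x.1 1 1 = -1 := by rw [ha1] at hdet; linear_combination -hdet
        have hx' : x = -(upperUni (-x.1 0 1)) := by
          apply Subtype.ext; ext i j; fin_cases i <;> fin_cases j <;> simp [upperUni_coe, Matrix.SpecialLinearGroup.coe_neg, h10, ha1, hd]
        refine hnegS ?_
        have hcube : (upperUni (-x.1 0 1) : SL(2, F)) ^ 3 = 1 := by
          apply Subtype.ext
          rw [pow_succ, pow_two]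
          simp only [Matrix.SpecialLinearGroup.coe_mul, Matrix.SpecialLinearGroup.coe_one, upperUni_coe]
          ext i j
          fin_cases i <;> fin_cases j <;> simp [Matrix.mul_apply, Fin.sum_univ_two]
          linear_combination -(x.1 0 1) * h3
        have : x ^ 3 = -1 := by rw [hx', Odd.neg_pow (n := 3) ⟨1, rfl⟩, hcube]
        exact this ▸ pow_mem hx 3
    by_cases h10 : s.1 1 0 = 0
    · exact htri s hs h10
    exfalso
    -- move `s` to an element with vanishing upper left entry
    set s' := upperUni (-(s.1 0 0 / s.1 1 0)) * s * (upperUni (-(s.1 0 0 / s.1 1 0)))⁻¹ with hs'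
    have hs'S : s' ∈ S := hn _ (hu _) s hs
    have hm := congrArg (fun g : SL(2, F) => g.1) (show s' * upperUni (-(s.1 0 0 / s.1 1 0)) =
      upperUni (-(s.1 0 0 / s.1 1 0)) * s by rw [hs', inv_mul_cancel_right])
    simp only [Matrix.SpecialLinearGroup.coe_mul, upperUni_coe] at hm
    have e00 : s'.1 0 0 = 0 := by
      have := congrFun (congrFun hm 0) 0
      simp [Matrix.mul_apply, Fin.sum_univ_two] at this
      rw [this]; field_simp; ring
    have e10 : s'.1 1 0 = s.1 1 0 := by
      simpa [Matrix.mul_apply, Fin.sum_univ_two] using congrFun (congrFun hm 1) 0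
    have hdiag : diagSL t ht ∈ commutator SL(2, F) := by
      have h1 : diagSL t ht = upperUni t * lowerUni (-t⁻¹) * upperUni t * (upperUni 1 * lowerUni (-1) * upperUni 1)⁻¹ := by
        rw [eq_mul_inv_iff_mul_eq]
        apply Subtype.ext
        simp only [Matrix.SpecialLinearGroup.coe_mul, upperUni_coe, lowerUni_coe, diagSL_coe]
        ext i j
        fin_cases i <;> fin_cases j <;> simp [Matrix.mul_apply, Fin.sum_univ_two, ht]
      rw [h1]
      exact mul_mem (mul_mem (mul_mem (hu t) (hl _)) (hu t))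
        (inv_mem (mul_mem (mul_mem (hu 1) (hl (-1))) (hu 1)))
    set x := s'⁻¹ * (diagSL t ht * s' * (diagSL t ht)⁻¹) with hx
    have hxS : x ∈ S := mul_mem (inv_mem hs'S) (hn _ hdiag _ hs'S)
    have hxm := congrArg (fun g : SL(2, F) => g.1)
      (show s' * x * diagSL t ht = diagSL t ht * s' by rw [hx, mul_inv_cancel_left, inv_mul_cancel_right])
    simp only [Matrix.SpecialLinearGroup.coe_mul, diagSL_coe] at hxm
    have q00 := congrFun (congrFun hxm 0) 0
    have q10 := congrFun (congrFun hxm 1) 0
    simp [Matrix.mul_apply, Fin.sum_univ_two, e00, e10] at q00 q10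
    have hb : s'.1 0 1 ≠ 0 := fun h => by
      have := s'.2; rw [Matrix.det_fin_two, e00, h] at this; simp at this
    have x10 : x.1 1 0 = 0 := (q00.resolve_right ht).resolve_left hb
    have hx1 := htri x hxS x10
    rw [hx1] at q10
    simp at q10
    have q10' : s.1 1 0 * (t - t⁻¹) = 0 := by linear_combination q10
    rcases mul_eq_zero.1 q10' with h | h
    · exact h10 h
    · exact htt (by have := sub_eq_zero.1 h; nth_rw 1 [this]; exact inv_mul_cancel₀ ht)
  · -- three elements
    haveI hfin : Finite F := by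
      refine Finite.of_surjective (fun i : Fin 3 => (![0, 1, -1] : Fin 3 → F) i) fun x => ?_
      rcases cases_of_small hbig x with rfl | rfl | rfl
      exacts [⟨0, rfl⟩, ⟨1, rfl⟩, ⟨2, rfl⟩]
    let e : ZMod 3 →+* F := ZMod.castHom (dvd_refl 3) F
    have he : Function.Surjective e := fun x => by
      rcases cases_of_small hbig x with rfl | rfl | rfl
      exacts [⟨0, map_zero e⟩, ⟨1, map_one e⟩, ⟨-1, by rw [map_neg, map_one]⟩]
    have heb : Function.Bijective e := ⟨e.injective, he⟩
    let φ : SL(2, ZMod 3) →* SL(2, F) := Matrix.SpecialLinearGroup.map e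
    have hφi : Function.Injective φ := fun a b h => Subtype.ext (Matrix.ext fun i j => heb.1 (by
      have := congrArg (fun g : SL(2, F) => g.1 i j) h; simpa [φ] using this))
    have hφs : Function.Surjective φ := by
      intro g
      obtain ⟨r, hr⟩ : ∃ r : Matrix (Fin 2) (Fin 2) (ZMod 3), r.map e = g.1 :=
        ⟨fun i j => (he (g.1 i j)).choose, Matrix.ext fun i j => (he (g.1 i j)).choose_spec⟩
      have hdet : r.det = 1 := heb.1 (by rw [RingHom.map_det, RingHom.mapMatrix_apply, hr, g.2, map_one])
      exact ⟨⟨r, hdet⟩, Subtype.ext hr⟩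
    obtain ⟨r, rfl⟩ := hφs s
    have hφc : ∀ (g : SL(2, ZMod 3)) (i j : Fin 2), (φ g).1 i j = e (g.1 i j) := fun g i j => rfl
    have hw : φ weylSL = weylSL := by
      apply Subtype.ext; ext i j; rw [hφc]; fin_cases i <;> fin_cases j <;> simp [weylSL_coe]
    have hj : φ quatJ = quatJ := by
      apply Subtype.ext; ext i j; rw [hφc]; fin_cases i <;> fin_cases j <;> simp [quatJ_coe]
    have hw' : weylSL * r * weylSL⁻¹ * r⁻¹ ∈ S.comap φ := by
      show φ _ ∈ S
      rw [map_mul, map_mul, map_mul, map_inv, map_inv, hw]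
      exact mul_mem (hn _ weylSL_mem _ hs) (inv_mem hs)
    have hj' : quatJ * r * quatJ⁻¹ * r⁻¹ ∈ S.comap φ := by
      show φ _ ∈ S
      rw [map_mul, map_mul, map_mul, map_inv, map_inv, hj]
      exact mul_mem (hn _ quatJ_mem _ hs) (inv_mem hs)
    have hodd' : ∀ z ∈ S.comap φ, z ^ 3 = 1 := by
      intro z hz
      have ho : Odd (orderOf z) := by rw [← orderOf_injective φ hφi]; exact hodd _ hz
      have key : ∀ z : SL(2, ZMod 3), z ^ 3 = 1 ∨ z ^ 4 = 1 ∨ z ^ 6 = 1 := by decide
      rcases key z with h | h | h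
      · exact h
      · have hd := orderOf_dvd_of_pow_eq_one h
        have h1 : orderOf z = 1 :=
          Nat.eq_one_of_dvd_coprimes (ho.coprime_two_right.pow_right 2) dvd_rfl hd
        rw [orderOf_eq_one_iff.1 h1, one_pow]
      · refine orderOf_dvd_iff_pow_eq_one.1 ?_
        exact Nat.Coprime.dvd_of_dvd_mul_right ho.coprime_two_right (orderOf_dvd_of_pow_eq_one h)
    have hfin : ∀ r : SL(2, ZMod 3), r ^ 3 = 1 → (weylSL * r * weylSL⁻¹ * r⁻¹) ^ 3 = 1 →
        (quatJ * r * quatJ⁻¹ * r⁻¹) ^ 3 = 1 → r = 1 := by decide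
    rw [hfin r (hodd' r hs) (hodd' _ hw') (hodd' _ hj'), map_one]

/-- An element of `SL₂` cubing to one acts quadratically. -/
theorem quadratic_of_cube [CharP F 3] (g : SL(2, F)) (h : g ^ 3 = 1) (x : Fin 2 → F) :
    g.1.mulVec (g.1.mulVec x - x) = g.1.mulVec x - x := by
  set N : Matrix (Fin 2) (Fin 2) F := g.1 - 1 with hN
  haveI : CharP (Matrix (Fin 2) (Fin 2) F) 3 := inferInstance
  have h3 : N ^ 3 = 0 := by
    rw [hN, sub_pow_char_of_commute 3 (Commute.one_right _), one_pow]
    have := congrArg Subtype.val h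
    rw [Matrix.SpecialLinearGroup.coe_pow] at this
    simp [this]
  have hnil : IsNilpotent N := ⟨3, h3⟩
  have hch := Matrix.aeval_self_charpoly N
  have h2 : N ^ 2 = 0 := by
    have htr : N.trace = 0 := by
      have := Matrix.isNilpotent_trace_of_isNilpotent hnil
      exact this.eq_zero
    have hdet : N.det = 0 := by
      have := congrArg Matrix.det h3
      rw [Matrix.det_pow, Matrix.det_zero] at this
      exact pow_eq_zero_iff (by norm_num) |>.1 this
    rw [Matrix.charpoly_fin_two, htr, hdet] at hch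
    simpa using hch
  have hx : N.mulVec (N.mulVec x) = 0 := by rw [Matrix.mulVec_mulVec, ← pow_two, h2, Matrix.zero_mulVec]
  have e : ∀ y, N.mulVec y = g.1.mulVec y - y := fun y => by rw [hN, Matrix.sub_mulVec, Matrix.one_mulVec]
  rw [e, e, sub_eq_zero] at hx
  exact hx

/-- The additive commutant of the derived group on the natural module consists of scalars. -/
theorem commutant_scalar [CharP F 3] (T : (Fin 2 → F) →+ (Fin 2 → F)) (hbig : ∃ t : F, t ≠ 0 ∧ t * t ≠ 1)
    (h : ∀ g ∈ commutator SL(2, F), ∀ x, T (g.1.mulVec x) = g.1.mulVec (T x)) :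
    ∃ l : F, ∀ x, T x = l • x := by
  have hu := fun a => h _ (upperUni_mem_commutator hbig a).1
  have hl := fun a => h _ (upperUni_mem_commutator hbig a).2
  -- `T` commutes with the matrix units
  have eu : ∀ a (x : Fin 2 → F), T ![a * x 1, 0] = ![a * T x 1, 0] := by
    intro a x
    have e : ∀ y : Fin 2 → F, (upperUni a : SL(2, F)).1.mulVec y = y + ![a * y 1, 0] := fun y => by
      funext i; fin_cases i <;> simp [upperUni, Matrix.mulVec, dotProduct, Fin.sum_univ_two]
    have := hu a x
    rw [e, e, T.map_add] at this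
    exact add_left_cancel this
  have el : ∀ a (x : Fin 2 → F), T ![0, a * x 0] = ![0, a * T x 0] := by
    intro a x
    have e : ∀ y : Fin 2 → F, (lowerUni a : SL(2, F)).1.mulVec y = y + ![0, a * y 0] := fun y => by
      funext i; fin_cases i <;> simp [lowerUni, Matrix.mulVec, dotProduct, Fin.sum_univ_two, add_comm]
    have := hl a x
    rw [e, e, T.map_add] at this
    exact add_left_cancel this
  refine ⟨T ![1, 0] 0, fun x => ?_⟩
  have h1 : ∀ c : F, T ![0, c] = ![0, T ![1, 0] 0 * c] := fun c => by
    have := el c ![1, 0]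
    simpa [mul_comm] using this
  have h0 : ∀ c : F, T ![c, 0] = ![T ![1, 0] 0 * c, 0] := fun c => by
    have := eu c ![0, 1]
    rw [h1 1] at this
    simpa [mul_comm] using this
  have hx : x = ![x 0, 0] + ![0, x 1] := by funext i; fin_cases i <;> simp
  conv_lhs => rw [hx, T.map_add, h0, h1]
  funext i; fin_cases i <;> simp

/-- A quadratic additive map normalizing the derived group is the action of one of its elements, when the
field has more than three elements. -/
theorem exists_mem_of_quadratic [CharP F 3] [Finite F] (T : (Fin 2 → F) ≃+ (Fin 2 → F))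
    (hbig : ∃ t : F, t ≠ 0 ∧ t * t ≠ 1)
    (hnorm : ∀ g ∈ commutator SL(2, F), ∃ g' ∈ commutator SL(2, F), ∀ x, T (g.1.mulVec x) = g'.1.mulVec (T x))
    (hquad : ∀ x, T (T x - x) = T x - x) :
    ∃ g ∈ commutator SL(2, F), ∀ x, T x = g.1.mulVec x := by
  have h3 := three_eq_zero (F := F)
  -- scalars are moved to scalars
  have hsigma : ∀ l : F, ∃ m : F, ∀ x, T (l • x) = m • T x := by
    intro l
    let S : (Fin 2 → F) →+ (Fin 2 → F) :=
      T.toAddMonoidHom.comp ((DistribSMul.toAddMonoidHom (Fin 2 → F) l).comp T.symm.toAddMonoidHom)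
    obtain ⟨m, hm⟩ : ∃ m : F, ∀ x, S x = m • x := by
      -- `S` commutes with the image of the derived group
      have hcomm : ∀ g ∈ commutator SL(2, F), ∀ g' : SL(2, F), (∀ x, T (g.1.mulVec x) = g'.1.mulVec (T x)) →
          ∀ x, S (g'.1.mulVec x) = g'.1.mulVec (S x) := by
        intro g _ g' hg' x
        have h1 : T.symm (g'.1.mulVec x) = g.1.mulVec (T.symm x) := by
          rw [AddEquiv.symm_apply_eq, hg', AddEquiv.apply_symm_apply]
        show T (l • T.symm (g'.1.mulVec x)) = g'.1.mulVec (T (l • T.symm x))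
        rw [h1, ← Matrix.mulVec_smul, hg']
      refine commutant_scalar S hbig fun g' hg' x => ?_
      -- every element of the derived group occurs
      choose φ hφ hφT using hnorm
      let Φ : (commutator SL(2, F) : Subgroup SL(2, F)) → (commutator SL(2, F) : Subgroup SL(2, F)) :=
        fun g => ⟨φ g.1 g.2, hφ g.1 g.2⟩
      have hinj : Function.Injective Φ := fun a b hab => by
        refine Subtype.ext (mulVec_injective fun y => T.injective ?_)
        rw [hφT a.1 a.2, hφT b.1 b.2]
        exact congrArg (fun g : (commutator SL(2, F) : Subgroup SL(2, F)) => g.1.1.mulVec (T y)) hab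
      obtain ⟨g, hg⟩ := Finite.injective_iff_surjective.1 hinj ⟨g', hg'⟩
      have hgg : φ g.1 g.2 = g' := congrArg Subtype.val hg
      exact hcomm g.1 g.2 g' (fun y => hgg ▸ hφT g.1 g.2 y) x
    exact ⟨m, fun x => by simpa [S] using hm (T x)⟩
  choose σ hσ using hsigma
  have hTinj : ∀ x, T x = 0 → x = 0 := fun x hx => T.injective (by rw [hx, map_zero])
  -- the map is linear
  have hlin : ∀ (l : F) x, T (l • x) = l • T x := by
    suffices hs : ∀ l, σ l = l from fun l x => by rw [hσ, hs]
    intro l
    by_cases hind : ∃ x, det2 (T x) x ≠ 0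
    · obtain ⟨x, hx⟩ := hind
      have hq : ∀ y, T (T y) = T y - y + T y := fun y => by
        have := hquad y
        rw [map_sub, sub_eq_iff_eq_add] at this
        exact this
      have h := hq (l • x)
      rw [hσ, hσ, hq] at h
      -- coefficients of `T x` and `x`
      have key : ∀ a c : F, a • T x + c • x = 0 → a = 0 ∧ c = 0 := by
        intro a c hac
        have g0 := congrFun hac 0
        have g1 := congrFun hac 1
        simp at g0 g1
        constructor
        · refine (mul_eq_zero.1 (?_ : a * det2 (T x) x = 0)).resolve_right hx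
          simp only [det2]; linear_combination (x 1) * g0 - (x 0) * g1
        · refine (mul_eq_zero.1 (?_ : c * det2 (T x) x = 0)).resolve_right hx
          simp only [det2]; linear_combination (T x 0) * g1 - (T x 1) * g0
      obtain ⟨ha, hc⟩ := key (2 * σ (σ l) - 2 * σ l) (l - σ (σ l)) (by
        funext i
        have := congrFun h i
        simp at this ⊢
        linear_combination this)
      have h2 : (2 : F) ≠ 0 := fun h2 => one_ne_zero (α := F) (by linear_combination h3 - h2)
      rw [← mul_sub] at ha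
      rw [← sub_eq_zero.1 ((mul_eq_zero.1 ha).resolve_left h2)]
      exact (sub_eq_zero.1 hc).symm
    · push Not at hind
      have h0 := hind ![1, 0]
      have h1 := hind ![0, 1]
      have h01 := hind ![1, 1]
      have hl01 := hind ![1, l]
      have e11 : (![1, 1] : Fin 2 → F) = ![1, 0] + ![0, 1] := by funext i; fin_cases i <;> simp
      have el : (![1, l] : Fin 2 → F) = ![1, 0] + l • ![0, 1] := by funext i; fin_cases i <;> simp
      rw [e11, map_add] at h01
      rw [el, map_add, hσ] at hl01
      simp [det2] at h0 h1 h01 hl01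
      have hne : T ![1, 0] 0 ≠ 0 := fun h => by
        refine one_ne_zero (α := F) (congrFun (hTinj ![1, 0] (funext fun i => ?_)) 0)
        fin_cases i <;> simp [h, h0]
      simp [h0, h1] at h01 hl01
      have h01' : T ![1, 0] 0 = T ![0, 1] 1 := by linear_combination h01
      rw [← h01'] at hl01
      exact mul_right_cancel₀ hne (by linear_combination -hl01)
  let L : (Fin 2 → F) →ₗ[F] (Fin 2 → F) := { toFun := T, map_add' := map_add T, map_smul' := hlin }
  set M := LinearMap.toMatrix' L with hMdef
  have hM : ∀ x, M.mulVec x = T x := fun x => LinearMap.toMatrix'_mulVec L x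
  have hN : (M - 1) * (M - 1) = 0 := by
    refine Matrix.ext_of_mulVec_single fun i => ?_
    rw [← Matrix.mulVec_mulVec, Matrix.zero_mulVec]
    simp only [Matrix.sub_mulVec, Matrix.one_mulVec, hM, Matrix.mulVec_sub, map_sub]
    have := hquad (Pi.single i 1)
    rw [map_sub] at this
    rw [this, sub_self]
  set a := (M - 1) 0 0 with ha
  set b := (M - 1) 0 1 with hb
  set c := (M - 1) 1 0 with hc
  set d := (M - 1) 1 1 with hd
  have q00 := congrFun (congrFun hN 0) 0
  have q01 := congrFun (congrFun hN 0) 1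
  have q10 := congrFun (congrFun hN 1) 0
  have q11 := congrFun (congrFun hN 1) 1
  simp [Matrix.mul_apply, Fin.sum_univ_two, -Matrix.sub_apply, ← ha, ← hb, ← hc, ← hd] at q00 q01 q10 q11
  have hM' : ∀ x, T x = ![x 0 + (a * x 0 + b * x 1), x 1 + (c * x 0 + d * x 1)] := fun x => by
    rw [← hM, ha, hb, hc, hd]
    funext i
    fin_cases i <;> simp [Matrix.mulVec, dotProduct, Fin.sum_univ_two] <;> ring
  by_cases hc0 : c = 0
  · have ha0 : a = 0 := mul_self_eq_zero.1 (by rw [hc0, mul_zero, add_zero] at q00; exact q00)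
    have hd0 : d = 0 := mul_self_eq_zero.1 (by rw [hc0, zero_mul, zero_add] at q11; exact q11)
    refine ⟨upperUni b, (upperUni_mem_commutator hbig b).1, fun x => ?_⟩
    rw [hM']
    funext i
    fin_cases i <;> simp [upperUni, Matrix.mulVec, dotProduct, Fin.sum_univ_two, ha0, hd0, hc0]
  · refine ⟨upperUni (a / c) * lowerUni c * upperUni (-(a / c)),
      mul_mem (mul_mem (upperUni_mem_commutator hbig _).1 (upperUni_mem_commutator hbig _).2)
        (upperUni_mem_commutator hbig _).1, fun x => ?_⟩
    have hd' : d = -a := eq_neg_of_add_eq_zero_right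
      ((mul_eq_zero.1 (show c * (a + d) = 0 by linear_combination q10)).resolve_left hc0)
    have hb' : b = -(a * a) / c := by field_simp; linear_combination q00
    rw [hM', hb', hd']
    simp only [Matrix.SpecialLinearGroup.coe_mul, upperUni_coe, lowerUni_coe]
    funext i
    fin_cases i <;> simp [Matrix.mulVec, dotProduct, Fin.sum_univ_two, Matrix.mul_apply] <;> field_simp <;> ring

/-- Additive maps of a two-dimensional space over the prime field are linear. -/
theorem map_smul_of_small (hsmall : ¬ ∃ t : F, t ≠ 0 ∧ t * t ≠ 1) (T : (Fin 2 → F) →+ (Fin 2 → F)) (l : F)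
    (x : Fin 2 → F) : T (l • x) = l • T x := by
  rcases cases_of_small hsmall l with rfl | rfl | rfl <;> simp

/-- An additive map of order dividing three over the field of three elements is quadratic. -/
theorem quadratic_of_small [CharP F 3] (hsmall : ¬ ∃ t : F, t ≠ 0 ∧ t * t ≠ 1) (T : (Fin 2 → F) →+ (Fin 2 → F))
    (h : ∀ x, T (T (T x)) = x) (x : Fin 2 → F) : T (T x - x) = T x - x := by
  let L : (Fin 2 → F) →ₗ[F] (Fin 2 → F) :=
    { toFun := T, map_add' := map_add T, map_smul' := map_smul_of_small hsmall T }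
  have hM : ∀ y, (LinearMap.toMatrix' L).mulVec y = T y := fun y => LinearMap.toMatrix'_mulVec L y
  have h3 : LinearMap.toMatrix' L ^ 3 = 1 := by
    refine Matrix.ext_of_mulVec_single fun i => ?_
    rw [pow_succ, pow_two, ← Matrix.mulVec_mulVec, ← Matrix.mulVec_mulVec, hM, hM, hM, h, Matrix.one_mulVec]
  have hdet : (LinearMap.toMatrix' L).det = 1 := by
    have h' := congrArg Matrix.det h3
    rw [Matrix.det_pow, Matrix.det_one] at h'
    have : ((LinearMap.toMatrix' L).det - 1) ^ 3 = 0 := by rw [sub_pow_char, one_pow, h', sub_self]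
    exact sub_eq_zero.1 (pow_eq_zero_iff (by norm_num) |>.1 this)
  have := quadratic_of_cube (⟨LinearMap.toMatrix' L, hdet⟩ : SL(2, F))
    (Subtype.ext h3) x
  simpa only [hM] using this

end CfsgLib.BaumannBlock.CentModule
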