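import Mathlib
import Cfsg.Agent.BaumannBlock.Structure
import Cfsg.Agent.BaumannBlock.CentModule.SL2Facts

/-!
The working hypotheses for an exceptional block `E` (with `Q = O₃(E) ≤ O = O₃(G)`), the section
`Ω₁Z(O/V)` on which the centralizer of `U = [V, E]` acts, and the commutator pairing on it.
-/

set_option autoImplicit false

open scoped MatrixGroups commutatorElement

namespace CfsgLib.BaumannBlock.CentModule

open Cfsg

variable {G : Type*} [Group G]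

/-- The facts on an exceptional block that are used. -/
structure Exc (E B : Subgroup G) (F : Type) [Field F] where
  O : Subgroup G
  V : Subgroup G
  Q : Subgroup G
  U : Subgroup G
  Z : Subgroup G
  normal_O : O.Normal
  normal_V : V.Normal
  pgroup_O : IsPGroup 3 O
  self_centralizing : Subgroup.centralizer (O : Set G) ≤ O
  V_le : V ≤ O
  V_central : ∀ v ∈ V, ∀ o ∈ O, v * o = o * v
  V_pow : ∀ v ∈ V, v ^ 3 = 1
  Q_le : Q ≤ O
  Q_le_E : Q ≤ E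
  U_le : U ≤ V
  Z_le : Z ≤ V
  U_inf_Z : U ⊓ Z = ⊥
  Q_inf_V : ∀ x ∈ Q, x ∈ V → ∃ u ∈ U, ∃ z ∈ Z, x = u * z
  U_le_Q : U ≤ Q
  Z_le_Q : Z ≤ Q
  E_norm_Q : E ≤ Subgroup.normalizer (Q : Set G)
  E_norm_U : E ≤ Subgroup.normalizer (U : Set G)
  OE : ∀ o ∈ O, ∀ e ∈ E, ⁅o, e⁆ ∈ Q
  OQ : ∀ q ∈ Q, ∀ o ∈ O, ⁅q, o⁆ ∈ V
  char3 : CharP F 3
  VE : ∀ v ∈ V, ∀ e ∈ E, ⁅v, e⁆ ∈ U
  comm_mem_Z : ∀ a ∈ Q, ∀ b ∈ Q, ⁅a, b⁆ ∈ Z
  Z_eq : Z ≤ ⁅Q, Q⁆
  card_Z : Nat.card Z = Nat.card F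
  E_central_Z : ∀ e ∈ E, ∀ z ∈ Z, e * z = z * e
  ρ : E →* SL(2, F)
  ψ : Q →* Multiplicative (Fin 2 → F)
  ρ_range : ρ.range = commutator SL(2, F)
  ψ_surj : Function.Surjective ψ
  ψ_ker : ∀ q : Q, ψ q = 1 ↔ (q : G) ∈ V
  ρ_ker : ∀ e : E, ρ e = 1 ↔ (e : G) ∈ Q
  ρ_ψ : ∀ (e : E) (q q' : Q), (q' : G) = (e : G) * q * (e : G)⁻¹ →
    (ψ q').toAdd = (ρ e).1.mulVec (ψ q).toAdd
  ρU : E →* SL(2, F)
  ψU : U →* Multiplicative (Fin 2 → F)
  ρU_range : ρU.range = commutator SL(2, F)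
  ψU_bij : Function.Bijective ψU
  ρU_ker : ∀ e : E, ρU e = 1 ↔ (e : G) ∈ Q
  ρU_ψ : ∀ (e : E) (u u' : U), (u' : G) = (e : G) * u * (e : G)⁻¹ →
    (ψU u').toAdd = (ρU e).1.mulVec (ψU u).toAdd
  t : G
  t_mem : t ∈ E
  t_sq : t * t = 1
  ρ_t : ρ ⟨t, t_mem⟩ = -1
  ρU_t : ρU ⟨t, t_mem⟩ = -1
  pgroup_B : IsPGroup 3 B
  B_norm_E : B ≤ Subgroup.normalizer (E : Set G)
  B_norm_Q : B ≤ Subgroup.normalizer (Q : Set G)
  B_norm_U : B ≤ Subgroup.normalizer (U : Set G)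
  B_norm_Z : B ≤ Subgroup.normalizer (Z : Set G)
  exists_quad : ∃ a ∈ B, a ∉ Subgroup.centralizer (U : Set G) ∧ a ^ 3 = 1 ∧ ∀ u ∈ U, ⁅⁅u, a⁆, a⁆ = 1
  nonquad : ∀ b ∈ B, b ∉ Subgroup.centralizer (U : Set G) → ¬ ∀ q ∈ Q, ⁅⁅q, b⁆, b⁆ ∈ Z
  norm_block : ∀ R : Subgroup G, IsPGroup 3 R → B ≤ Subgroup.normalizer (R : Set G) →
    E ≤ Subgroup.normalizer (R : Set G) → R ≤ Subgroup.normalizer (E : Set G)
  norm_B : ∀ (R : Subgroup G) (x : G), IsPGroup 3 R → B ≤ Subgroup.normalizer (R : Set G) →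
    (∀ b ∈ B, x * b * x⁻¹ * b⁻¹ ∈ R) → x ∈ Subgroup.normalizer (B : Set G)

variable {E B : Subgroup G} {F : Type} [Field F] (D : Exc E B F)

namespace Exc

instance : D.O.Normal := D.normal_O
instance : D.V.Normal := D.normal_V

theorem V_comm {a b : G} (ha : a ∈ D.V) (hb : b ∈ D.V) : a * b = b * a :=
  D.V_central a ha b (D.V_le hb)

include D in
theorem char_three : (3 : F) = 0 := by
  haveI := D.char3
  exact three_eq_zero

/-- A power that is trivial forces a square root of unity of exponent three to be trivial. -/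
theorem eq_one_of_sq {x : G} (hx : x ^ 3 = 1) (h : x * x = 1) : x = 1 := by
  rw [pow_succ, pow_two, h, one_mul] at hx
  exact hx

/-- The subgroup of `O` over `V` of all elements central of order dividing three modulo `V`. -/
def R : Subgroup G :=
  D.O ⊓ (omegaOneCenter 3 (D.O.map (QuotientGroup.mk' D.V))).comap (QuotientGroup.mk' D.V)

theorem R_le : D.R ≤ D.O := inf_le_left

theorem mem_R {x : G} (hx : x ∈ D.O) (hc : ∀ y ∈ D.O, ⁅x, y⁆ ∈ D.V) (hp : x ^ 3 ∈ D.V) : x ∈ D.R := by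
  refine ⟨hx, Subgroup.subset_closure ⟨⟨⟨x, hx, rfl⟩, Subgroup.mem_centralizer_iff.2 ?_⟩, ?_⟩⟩
  · rintro _ ⟨y, hy, rfl⟩
    refine (commutatorElement_eq_one_iff_mul_comm.1 ?_).symm
    rw [← map_commutatorElement]
    exact (QuotientGroup.eq_one_iff _).2 (hc y hy)
  · rw [← map_pow]
    exact (QuotientGroup.eq_one_iff _).2 hp

instance R_normal : D.R.Normal := by
  refine ⟨fun x hx g => ⟨D.normal_O.conj_mem x hx.1 g, ?_⟩⟩
  have hOm : (D.O.map (QuotientGroup.mk' D.V)).map (MulAut.conj (QuotientGroup.mk' D.V g)).toMonoidHom =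
      D.O.map (QuotientGroup.mk' D.V) :=
    Subgroup.mem_normalizer_iff_map_conj_eq.1 (by
      rw [Subgroup.normalizer_eq_top_iff.2 (Subgroup.Normal.map inferInstance _ (QuotientGroup.mk'_surjective _))]
      exact Subgroup.mem_top _)
  have h1 : (omegaOneCenter 3 (D.O.map (QuotientGroup.mk' D.V))).map
      (MulAut.conj (QuotientGroup.mk' D.V g)).toMonoidHom = omegaOneCenter 3 (D.O.map (QuotientGroup.mk' D.V)) := by
    rw [omegaOneCenter, ← map_omegaOne, Subgroup.map_inf _ _ _ (MulAut.conj _).injective, ← map_centralizer, hOm]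
  exact h1.le ⟨_, hx.2, by simp⟩

theorem V_le_R : D.V ≤ D.R := fun v hv => D.mem_R (D.V_le hv)
  (fun y hy => by rw [commutatorElement_eq_one_iff_mul_comm.2 (D.V_central v hv y hy)]; exact one_mem _)
  (pow_mem hv 3)

/-- The section `R / V`, as a subgroup of `G / V`. -/
def Ab : Subgroup (G ⧸ D.V) := D.R.map (QuotientGroup.mk' D.V)

instance Ab_normal : D.Ab.Normal := D.R_normal.map _ (QuotientGroup.mk'_surjective _)

theorem Ab_le : D.Ab ≤ omegaOneCenter 3 (D.O.map (QuotientGroup.mk' D.V)) := by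
  rintro _ ⟨x, hx, rfl⟩
  exact hx.2

theorem ab_comm (a b : D.Ab) : a * b = b * a :=
  Subtype.ext (omegaOneCenter_comm _ (D.Ab_le a.2) (D.Ab_le b.2))

instance : IsMulCommutative D.Ab := ⟨⟨D.ab_comm⟩⟩

theorem ab_pow (a : D.Ab) : a ^ 3 = 1 :=
  Subtype.ext (by rw [Subgroup.coe_pow]; exact omegaOneCenter_pow _ (D.Ab_le a.2))

theorem ab_eq_one_of_sq {a : D.Ab} (h : a * a = 1) : a = 1 := by
  have := D.ab_pow a
  rwa [pow_succ, pow_two, h, one_mul] at this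

theorem R_comm_mem {x y : G} (hx : x ∈ D.R) (hy : y ∈ D.O) : ⁅x, y⁆ ∈ D.V := by
  refine (QuotientGroup.eq_one_iff _).1 ?_
  show QuotientGroup.mk' D.V ⁅x, y⁆ = 1
  rw [map_commutatorElement]
  exact commutatorElement_eq_one_iff_mul_comm.2
    (Subgroup.mem_centralizer_iff.1 (omegaOneCenter_le_centralizer _ hx.2) _ ⟨y, hy, rfl⟩).symm

/-- The action of `G` on the section. -/
def act : G →* MulAut D.Ab := (MulAut.conjNormal (H := D.Ab)).comp (QuotientGroup.mk' D.V)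

theorem act_coe (g : G) (a : D.Ab) :
    ((D.act g a : D.Ab) : G ⧸ D.V) = (g : G ⧸ D.V) * a * (g : G ⧸ D.V)⁻¹ := MulAut.conjNormal_apply _ _

/-- The class of an element of `R`. -/
def cl : D.R →* D.Ab := (QuotientGroup.mk' D.V).subgroupMap D.R

theorem cl_surj : Function.Surjective D.cl := (QuotientGroup.mk' D.V).subgroupMap_surjective D.R

theorem cl_coe (r : D.R) : ((D.cl r : D.Ab) : G ⧸ D.V) = ((r : G) : G ⧸ D.V) := rfl

theorem act_cl (g : G) (r : D.R) : D.act g (D.cl r) = D.cl ⟨g * r * g⁻¹, D.R_normal.conj_mem _ r.2 g⟩ :=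
  Subtype.ext (by rw [D.act_coe]; rfl)

theorem cl_eq_iff (r s : D.R) : D.cl r = D.cl s ↔ (r : G)⁻¹ * s ∈ D.V := by
  rw [← QuotientGroup.eq, Subtype.ext_iff, D.cl_coe, D.cl_coe]

theorem act_eq_one_of_mem_O {x : G} (hx : x ∈ D.O) : D.act x = 1 := by
  refine MulEquiv.ext fun a => ?_
  obtain ⟨r, rfl⟩ := D.cl_surj a
  rw [D.act_cl, MulAut.one_apply, D.cl_eq_iff]
  show (x * r * x⁻¹)⁻¹ * r ∈ D.V
  convert D.normal_V.conj_mem _ (D.R_comm_mem r.2 hx) (r : G)⁻¹ using 1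
  rw [commutatorElement_def]
  group

/-- The commutator pairing on the section, with values in `V`. -/
noncomputable def beta (a b : D.Ab) : G :=
  ⁅((Function.surjInv D.cl_surj a : D.R) : G), ((Function.surjInv D.cl_surj b : D.R) : G)⁆

theorem beta_cl (r s : D.R) : D.beta (D.cl r) (D.cl s) = ⁅(r : G), (s : G)⁆ := by
  set r' := Function.surjInv D.cl_surj (D.cl r) with hr'
  set s' := Function.surjInv D.cl_surj (D.cl s) with hs'
  have h1 := (D.cl_eq_iff r r').1 (Function.surjInv_eq D.cl_surj (D.cl r)).symm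
  have h2 := (D.cl_eq_iff s s').1 (Function.surjInv_eq D.cl_surj (D.cl s)).symm
  show ⁅(r' : G), (s' : G)⁆ = _
  obtain ⟨v, hv⟩ : ∃ v, v = (r : G)⁻¹ * r' := ⟨_, rfl⟩
  obtain ⟨w, hw⟩ : ∃ w, w = (s : G)⁻¹ * s' := ⟨_, rfl⟩
  rw [← hv] at h1
  rw [← hw] at h2
  have er : (r' : G) = r * v := by rw [hv, mul_inv_cancel_left]
  have es : (s' : G) = s * w := by rw [hw, mul_inv_cancel_left]
  have cv : ∀ y ∈ D.O, v * y = y * v := D.V_central v h1
  have cw : ∀ y ∈ D.O, w * y = y * w := D.V_central w h2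
  have hsO := D.R_le s.2
  have hrO := D.R_le r.2
  rw [er, es, commutatorElement_def, commutatorElement_def, mul_inv_rev, mul_inv_rev]
  calc (r : G) * v * (s * w) * (v⁻¹ * (r : G)⁻¹) * (w⁻¹ * (s : G)⁻¹)
      = r * (v * (s * w) * v⁻¹) * (r : G)⁻¹ * w⁻¹ * (s : G)⁻¹ := by group
    _ = r * (s * w) * (r : G)⁻¹ * w⁻¹ * (s : G)⁻¹ := by
        rw [cv _ (mul_mem hsO (D.V_le h2)), mul_inv_cancel_right]
    _ = r * s * (w * (r : G)⁻¹) * w⁻¹ * (s : G)⁻¹ := by group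
    _ = r * s * (r : G)⁻¹ * (s : G)⁻¹ := by rw [cw _ (inv_mem hrO)]; group

theorem beta_mem (a b : D.Ab) : D.beta a b ∈ D.V := by
  obtain ⟨r, rfl⟩ := D.cl_surj a
  obtain ⟨s, rfl⟩ := D.cl_surj b
  rw [D.beta_cl]
  exact D.R_comm_mem r.2 (D.R_le s.2)

theorem beta_self (a : D.Ab) : D.beta a a = 1 := by
  obtain ⟨r, rfl⟩ := D.cl_surj a
  rw [D.beta_cl, commutatorElement_self]

theorem beta_mul_right (a b b' : D.Ab) : D.beta a (b * b') = D.beta a b * D.beta a b' := by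
  obtain ⟨r, rfl⟩ := D.cl_surj a
  obtain ⟨s, rfl⟩ := D.cl_surj b
  obtain ⟨s', rfl⟩ := D.cl_surj b'
  rw [← map_mul, D.beta_cl, D.beta_cl, D.beta_cl, Subgroup.coe_mul]
  have h := D.R_comm_mem r.2 (D.R_le s'.2)
  have : ⁅(r : G), (s : G) * s'⁆ = ⁅(r : G), (s : G)⁆ * (s * ⁅(r : G), (s' : G)⁆ * (s : G)⁻¹) := by
    simp only [commutatorElement_def]; group
  rw [this, ← D.V_central _ h _ (D.R_le s.2), mul_inv_cancel_right]

theorem beta_inv (a b : D.Ab) : D.beta b a = (D.beta a b)⁻¹ := by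
  obtain ⟨r, rfl⟩ := D.cl_surj a
  obtain ⟨s, rfl⟩ := D.cl_surj b
  rw [D.beta_cl, D.beta_cl, commutatorElement_inv]

theorem beta_mul_left (a a' b : D.Ab) : D.beta (a * a') b = D.beta a b * D.beta a' b := by
  rw [D.beta_inv b (a * a'), D.beta_mul_right, mul_inv_rev, ← D.beta_inv b a, ← D.beta_inv b a']
  exact D.V_comm (D.beta_mem _ _) (D.beta_mem _ _)

theorem beta_act (g : G) (a b : D.Ab) : D.beta (D.act g a) (D.act g b) = g * D.beta a b * g⁻¹ := by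
  obtain ⟨r, rfl⟩ := D.cl_surj a
  obtain ⟨s, rfl⟩ := D.cl_surj b
  rw [D.act_cl, D.act_cl, D.beta_cl, D.beta_cl]
  exact (conjugate_commutatorElement (r : G) (s : G) g).symm

/-- The elements centralizing `V / U`. -/
def L0 : Subgroup G where
  carrier := {g | g ∈ Subgroup.normalizer (D.U : Set G) ∧ ∀ v ∈ D.V, g * v * g⁻¹ * v⁻¹ ∈ D.U}
  one_mem' := ⟨one_mem _, fun v _ => by simp⟩
  mul_mem' := by
    rintro a b ⟨ha, ha'⟩ ⟨hb, hb'⟩
    refine ⟨mul_mem ha hb, fun v hv => ?_⟩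
    have h1 := (Subgroup.mem_normalizer_iff.1 ha _).1 (hb' v hv)
    rw [show a * b * v * (a * b)⁻¹ * v⁻¹ = a * (b * v * b⁻¹ * v⁻¹) * a⁻¹ * (a * v * a⁻¹ * v⁻¹) by group]
    exact mul_mem h1 (ha' v hv)
  inv_mem' := by
    rintro a ⟨ha, ha'⟩
    refine ⟨inv_mem ha, fun v hv => ?_⟩
    have h1 := (Subgroup.mem_normalizer_iff.1 (inv_mem ha) _).1 (inv_mem (ha' v hv))
    rwa [show a⁻¹ * v * a⁻¹⁻¹ * v⁻¹ = a⁻¹ * (a * v * a⁻¹ * v⁻¹)⁻¹ * a⁻¹⁻¹ by group]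

theorem E_le_L0 : E ≤ D.L0 := fun e he => ⟨D.E_norm_U he, fun v hv => by
  have := inv_mem (D.VE v hv e he)
  rwa [commutatorElement_inv, commutatorElement_def] at this⟩

/-- The elements centralizing `O / R`. -/
def KO : Subgroup G where
  carrier := {g | ∀ o ∈ D.O, g * o * g⁻¹ * o⁻¹ ∈ D.R}
  one_mem' := fun o _ => by simp
  mul_mem' := by
    intro a b ha hb o ho
    rw [show a * b * o * (a * b)⁻¹ * o⁻¹ = a * (b * o * b⁻¹ * o⁻¹) * a⁻¹ * (a * o * a⁻¹ * o⁻¹) by group]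
    exact mul_mem (D.R_normal.conj_mem _ (hb o ho) a) (ha o ho)
  inv_mem' := by
    intro a ha o ho
    rw [show a⁻¹ * o * a⁻¹⁻¹ * o⁻¹ = a⁻¹ * (a * o * a⁻¹ * o⁻¹)⁻¹ * a⁻¹⁻¹ by group]
    exact D.R_normal.conj_mem _ (inv_mem (ha o ho)) _

instance KO_normal : D.KO.Normal :=
  ⟨fun g hg x o ho => by
    have h := D.R_normal.conj_mem _ (hg _ (D.normal_O.conj_mem o ho x⁻¹)) x
    simpa [mul_assoc] using h⟩

theorem Q_le_R : D.Q ≤ D.R := fun q hq => D.mem_R (D.Q_le hq)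
  (fun y hy => by
    -- `O` acts trivially on `Q` modulo `V`
    exact D.OQ q hq y hy)
  (by
    have h : D.ψ (⟨q, hq⟩ ^ 3) = 1 := by
      rw [map_pow]
      refine Multiplicative.toAdd.injective ?_
      rw [toAdd_pow, toAdd_one]
      funext i
      show (3 • (D.ψ ⟨q, hq⟩).toAdd) i = 0
      rw [Pi.smul_apply, nsmul_eq_mul]
      exact mul_eq_zero_of_left D.char_three _
    exact (D.ψ_ker _).1 h)

end Exc

end CfsgLib.BaumannBlock.CentModule
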