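import Mathlib
import Cfsg.Agent.BaumannBlock.CentModule.Setting

/-!
The decomposition of the section under the central involution of the block, and the natural form on the
inverted part.
-/

set_option autoImplicit false

open scoped MatrixGroups commutatorElement

namespace CfsgLib.BaumannBlock.CentModule

open Cfsg

variable {G : Type*} [Group G] {E B : Subgroup G} {F : Type} [Field F] (D : Exc E B F)

namespace Exc

/-- The image of the involution. -/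
def τ : MulAut D.Ab := D.act D.t

theorem τ_apply (a : D.Ab) : D.τ (D.τ a) = a := by
  show (D.act D.t * D.act D.t) a = a
  rw [← map_mul, D.t_sq, map_one, MulAut.one_apply]

/-- The classes of `Q`. -/
def clQ : D.Q →* D.Ab := D.cl.comp (Subgroup.inclusion D.Q_le_R)

/-- The inverted part of the section. -/
def P : Subgroup D.Ab := D.clQ.range

/-- The fixed part of the section. -/
def A0 : Subgroup D.Ab where
  carrier := {a | D.τ a = a}
  one_mem' := map_one _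
  mul_mem' := fun {a b} ha hb => by show D.τ (a * b) = a * b; rw [map_mul, ha, hb]
  inv_mem' := fun {a} ha => by show D.τ a⁻¹ = a⁻¹; rw [map_inv, ha]

theorem mem_A0 {a : D.Ab} : a ∈ D.A0 ↔ D.τ a = a := Iff.rfl

theorem clQ_mem (q : D.Q) : D.clQ q ∈ D.P := ⟨q, rfl⟩

theorem act_clQ (g : G) (q q' : D.Q) (h : (q' : G) = g * q * g⁻¹) : D.act g (D.clQ q) = D.clQ q' := by
  show D.act g (D.cl _) = D.cl _
  rw [D.act_cl]
  congr 1
  exact Subtype.ext h.symm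

theorem clQ_eq_one_iff (q : D.Q) : D.clQ q = 1 ↔ D.ψ q = 1 := by
  rw [D.ψ_ker]
  show D.cl _ = 1 ↔ _
  rw [Subtype.ext_iff, D.cl_coe]
  exact QuotientGroup.eq_one_iff _

theorem exists_ψP : ∃ φ : D.P →* Multiplicative (Fin 2 → F),
    Function.Bijective φ ∧ ∀ q : D.Q, φ ⟨D.clQ q, D.clQ_mem q⟩ = D.ψ q := by
  have hs : Function.Surjective D.clQ.rangeRestrict := MonoidHom.rangeRestrict_surjective _
  let φ : D.P →* Multiplicative (Fin 2 → F) := D.clQ.rangeRestrict.liftOfSurjective hs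
    ⟨D.ψ, fun q hq => (D.clQ_eq_one_iff q).1 (congrArg Subtype.val hq)⟩
  have hφ : ∀ q : D.Q, φ ⟨D.clQ q, D.clQ_mem q⟩ = D.ψ q := fun q =>
    MonoidHom.liftOfRightInverse_comp_apply _ _ _ _ q
  refine ⟨φ, ⟨(injective_iff_map_eq_one φ).2 ?_, fun m => ?_⟩, hφ⟩
  · rintro ⟨_, q, rfl⟩ h
    exact Subtype.ext ((D.clQ_eq_one_iff q).2 (by rw [← hφ]; exact h))
  · obtain ⟨q, hq⟩ := D.ψ_surj m
    exact ⟨⟨D.clQ q, D.clQ_mem q⟩, by rw [hφ, hq]⟩

/-- The coordinates on the inverted part. -/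
noncomputable def ψP : D.P →* Multiplicative (Fin 2 → F) := D.exists_ψP.choose

theorem ψP_bij : Function.Bijective D.ψP := D.exists_ψP.choose_spec.1

theorem ψP_clQ (q : D.Q) : D.ψP ⟨D.clQ q, D.clQ_mem q⟩ = D.ψ q := D.exists_ψP.choose_spec.2 q

/-- The element `g` acts on the inverted part as `s`. -/
def IsPhi (g : G) (s : SL(2, F)) : Prop :=
  ∀ p : D.P, ∃ h : D.act g p ∈ D.P, (D.ψP ⟨_, h⟩).toAdd = s.1.mulVec (D.ψP p).toAdd

theorem isPhi_E (e : E) : D.IsPhi (e : G) (D.ρ e) := by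
  rintro ⟨_, q, rfl⟩
  have hq : (e : G) * q * (e : G)⁻¹ ∈ D.Q := (Subgroup.mem_normalizer_iff.1 (D.E_norm_Q e.2) _).1 q.2
  have h := D.act_clQ (e : G) q ⟨_, hq⟩ rfl
  have hm : D.act (e : G) (D.clQ q) ∈ D.P := by rw [h]; exact D.clQ_mem _
  refine ⟨hm, ?_⟩
  have : (⟨D.act (e : G) (D.clQ q), hm⟩ : D.P) = ⟨D.clQ ⟨_, hq⟩, D.clQ_mem _⟩ :=
    Subtype.ext h
  rw [this, D.ψP_clQ, D.ρ_ψ e q ⟨_, hq⟩ rfl]
  exact congrArg (fun m => (D.ρ e).1.mulVec (Multiplicative.toAdd m)) (D.ψP_clQ q).symm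

theorem isPhi_one : D.IsPhi 1 1 := fun p =>
  ⟨by rw [map_one, MulAut.one_apply]; exact p.2, by simp⟩

theorem isPhi_mul {g h : G} {s r : SL(2, F)} (hg : D.IsPhi g s) (hh : D.IsPhi h r) :
    D.IsPhi (g * h) (s * r) := by
  intro p
  obtain ⟨h1, e1⟩ := hh p
  obtain ⟨h2, e2⟩ := hg ⟨_, h1⟩
  refine ⟨by rw [map_mul, MulAut.mul_apply]; exact h2, ?_⟩
  rw [Matrix.SpecialLinearGroup.coe_mul, ← Matrix.mulVec_mulVec, ← e1, ← e2]
  congr 2
  exact Subtype.ext (DFunLike.congr_fun (map_mul D.act g h) (p : D.Ab))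

theorem isPhi_unique {g : G} {s r : SL(2, F)} (hs : D.IsPhi g s) (hr : D.IsPhi g r) : s = r :=
  mulVec_injective fun x => by
    obtain ⟨p, hp⟩ := D.ψP_bij.2 (Multiplicative.ofAdd x)
    obtain ⟨_, e1⟩ := hs p
    obtain ⟨_, e2⟩ := hr p
    rw [hp] at e1 e2
    exact e1.symm.trans e2

theorem isPhi_inv [Finite G] {g : G} {s : SL(2, F)} (hs : D.IsPhi g s) : D.IsPhi g⁻¹ s⁻¹ := by
  have key : ∀ k : ℕ, D.IsPhi (g ^ k) (s ^ k) := by
    intro k
    induction k with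
    | zero => rw [pow_zero, pow_zero]; exact D.isPhi_one
    | succ k ih => rw [pow_succ, pow_succ]; exact D.isPhi_mul ih hs
  have h1 : g ^ (orderOf g - 1) = g⁻¹ :=
    eq_inv_of_mul_eq_one_left (by rw [← pow_succ, Nat.sub_add_cancel (orderOf_pos g), pow_orderOf_eq_one])
  have h2 : s ^ orderOf g = 1 := D.isPhi_unique (pow_orderOf_eq_one g ▸ key (orderOf g)) D.isPhi_one
  have h3 : s ^ (orderOf g - 1) = s⁻¹ :=
    eq_inv_of_mul_eq_one_left (by rw [← pow_succ, Nat.sub_add_cancel (orderOf_pos g), h2])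
  exact h1 ▸ h3 ▸ key _

theorem isPhi_t : D.IsPhi D.t (-1) := D.ρ_t ▸ D.isPhi_E ⟨D.t, D.t_mem⟩

theorem τ_of_mem_P {p : D.Ab} (hp : p ∈ D.P) : D.τ p = p⁻¹ := by
  obtain ⟨h, e⟩ := D.isPhi_t ⟨p, hp⟩
  have : (⟨D.τ p, h⟩ : D.P) = (⟨p, hp⟩ : D.P)⁻¹ := D.ψP_bij.1 (by
    rw [map_inv]
    refine Multiplicative.toAdd.injective ?_
    rw [toAdd_inv]
    exact e.trans (neg_mulVec _))
  exact congrArg Subtype.val this

theorem P_inf_A0 {a : D.Ab} (h1 : a ∈ D.P) (h2 : a ∈ D.A0) : a = 1 :=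
  D.ab_eq_one_of_sq (mul_eq_one_iff_eq_inv.2 ((D.mem_A0.1 h2).symm.trans (D.τ_of_mem_P h1)))

theorem act_E_sub (e : E) (a : D.Ab) : D.act (e : G) a * a⁻¹ ∈ D.P := by
  obtain ⟨r, rfl⟩ := D.cl_surj a
  have h : (e : G) * r * (e : G)⁻¹ * (r : G)⁻¹ ∈ D.Q := by
    have := inv_mem (D.OE r (D.R_le r.2) e e.2)
    rwa [commutatorElement_inv, commutatorElement_def] at this
  refine ⟨⟨_, h⟩, ?_⟩
  rw [D.act_cl, ← map_inv, ← map_mul]
  exact congrArg D.cl (Subtype.ext rfl)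

theorem τ_sub (a : D.Ab) : D.τ a * a⁻¹ ∈ D.P := D.act_E_sub ⟨D.t, D.t_mem⟩ a

/-- The fixed component of an element. -/
theorem fixed_component (a : D.Ab) : (D.τ a * a⁻¹)⁻¹ * a ∈ D.A0 := by
  rw [D.mem_A0, map_mul, map_inv, D.τ_of_mem_P (D.τ_sub a), inv_inv]
  have h3 := D.ab_pow (D.τ a * a⁻¹)
  rw [pow_succ, pow_two] at h3
  calc D.τ a * a⁻¹ * D.τ a
      = D.τ a * a⁻¹ * (D.τ a * a⁻¹) * (D.τ a * a⁻¹) * ((D.τ a * a⁻¹)⁻¹ * a) := by group
    _ = (D.τ a * a⁻¹)⁻¹ * a := by rw [h3, one_mul]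

/-- An invariant subgroup is the product of its two components. -/
theorem mem_sup_of_invariant {X : Subgroup D.Ab} (hX : ∀ x ∈ X, D.τ x ∈ X) {x : D.Ab} (hx : x ∈ X) :
    x ∈ (X ⊓ D.P) ⊔ (X ⊓ D.A0) := by
  have hd : D.τ x * x⁻¹ ∈ X := mul_mem (hX x hx) (inv_mem hx)
  have h1 : D.τ x * x⁻¹ ∈ X ⊓ D.P := Subgroup.mem_inf.2 ⟨hd, D.τ_sub x⟩
  have h2 : (D.τ x * x⁻¹)⁻¹ * x ∈ X ⊓ D.A0 := Subgroup.mem_inf.2 ⟨mul_mem (inv_mem hd) hx, D.fixed_component x⟩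
  have h := mul_mem (Subgroup.mem_sup_left (T := X ⊓ D.A0) h1) (Subgroup.mem_sup_right (S := X ⊓ D.P) h2)
  rwa [mul_inv_cancel_left] at h

theorem mem_sup (a : D.Ab) : a ∈ D.P ⊔ D.A0 := by
  have := D.mem_sup_of_invariant (X := ⊤) (fun _ _ => Subgroup.mem_top _) (Subgroup.mem_top a)
  rwa [top_inf_eq, top_inf_eq] at this

theorem act_Q {q : G} (hq : q ∈ D.Q) : D.act q = 1 := D.act_eq_one_of_mem_O (D.Q_le hq)

theorem act_commute_E (e : E) : Commute (D.act (e : G)) D.τ := by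
  have h : D.ρ (⁅e, ⟨D.t, D.t_mem⟩⁆) = 1 := by
    rw [map_commutatorElement, D.ρ_t, commutatorElement_eq_one_iff_mul_comm, mul_neg_one, neg_one_mul]
  have h1 := D.act_Q ((D.ρ_ker _).1 h)
  show D.act (e : G) * D.act D.t = D.act D.t * D.act (e : G)
  refine commutatorElement_eq_one_iff_mul_comm.1 ?_
  rw [← map_commutatorElement]
  exact h1

theorem act_E_A0 (e : E) {a : D.Ab} (ha : a ∈ D.A0) : D.act (e : G) a = a := by
  refine mul_inv_eq_one.1 (D.P_inf_A0 (D.act_E_sub e a) ?_)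
  rw [D.mem_A0, map_mul, map_inv, D.mem_A0.1 ha]
  congr 1
  exact ((DFunLike.congr_fun (D.act_commute_E e).eq a).symm.trans (congrArg (D.act (e : G)) (D.mem_A0.1 ha)))

theorem act_mem_A0 {g : G} (hg : Commute (D.act g) D.τ) {a : D.Ab} (ha : a ∈ D.A0) : D.act g a ∈ D.A0 := by
  rw [D.mem_A0]
  exact (DFunLike.congr_fun hg.eq a).symm.trans (congrArg (D.act g) (D.mem_A0.1 ha))

theorem act_mem_P {g : G} (hg : Commute (D.act g) D.τ) {a : D.Ab} (ha : a ∈ D.P) : D.act g a ∈ D.P := by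
  have h1 : D.τ (D.act g a) = (D.act g a)⁻¹ := by
    rw [← map_inv, ← D.τ_of_mem_P ha]
    exact (DFunLike.congr_fun hg.eq a).symm
  -- an inverted element lies in the inverted part
  have h2 := D.τ_sub (D.act g a)
  rw [h1] at h2
  have h3 : ((D.act g a)⁻¹ * (D.act g a)⁻¹) = D.act g a := by
    apply mul_left_cancel (a := (D.act g a))
    apply mul_left_cancel (a := (D.act g a))
    rw [← mul_assoc, ← mul_assoc, ← mul_assoc]
    have := D.ab_pow (D.act g a)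
    rw [pow_succ, pow_two] at this
    calc D.act g a * D.act g a * (D.act g a)⁻¹ * (D.act g a)⁻¹ = 1 := by group
      _ = D.act g a * D.act g a * D.act g a := this.symm
  rwa [h3] at h2

/-! ### Orthogonality -/

/-- Orthogonality for the pairing modulo `U`. -/
def Orth (a b : D.Ab) : Prop := D.beta a b ∈ D.U

theorem orth_act {g : G} (hg : g ∈ Subgroup.normalizer (D.U : Set G)) {a b : D.Ab} (h : D.Orth a b) :
    D.Orth (D.act g a) (D.act g b) := by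
  show D.beta _ _ ∈ D.U
  rw [D.beta_act]
  exact (Subgroup.mem_normalizer_iff.1 hg _).1 h

theorem orth_symm {a b : D.Ab} (h : D.Orth a b) : D.Orth b a := by
  show D.beta b a ∈ D.U
  rw [D.beta_inv a b]
  exact inv_mem h

theorem beta_act_mul_inv {g : G} (hg : g ∈ D.L0) (a b : D.Ab) :
    D.beta (D.act g a) (D.act g b) * (D.beta a b)⁻¹ ∈ D.U := by
  rw [D.beta_act]
  exact hg.2 _ (D.beta_mem a b)

theorem beta_one_left (b : D.Ab) : D.beta 1 b = 1 :=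
  left_eq_mul.1 (by rw [← D.beta_mul_left, one_mul])

theorem beta_inv_left (a b : D.Ab) : D.beta a⁻¹ b = (D.beta a b)⁻¹ :=
  eq_inv_of_mul_eq_one_left (by rw [← D.beta_mul_left, inv_mul_cancel, D.beta_one_left])

theorem orth_P_A0 {p a : D.Ab} (hp : p ∈ D.P) (ha : a ∈ D.A0) : D.Orth p a := by
  have h := D.beta_act_mul_inv (D.E_le_L0 D.t_mem) p a
  rw [show D.act D.t p = p⁻¹ from D.τ_of_mem_P hp, show D.act D.t a = a from D.mem_A0.1 ha,
    D.beta_inv_left] at h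
  have h3 := D.V_pow _ (D.beta_mem p a)
  have : D.beta p a = (D.beta p a)⁻¹ * (D.beta p a)⁻¹ := by
    apply mul_left_cancel (a := D.beta p a)
    apply mul_left_cancel (a := D.beta p a)
    rw [← mul_assoc, ← mul_assoc, ← mul_assoc, ← pow_two, ← pow_succ, h3]
    group
  show D.beta p a ∈ D.U
  rw [this]
  exact h

/-- The commutator of two elements of `Q` is determined by, and determines, the determinant. -/
theorem comm_eq_iff [Finite G] [Finite F] (q₁ q₂ r₁ r₂ : D.Q) :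
    ⁅(q₁ : G), (q₂ : G)⁆ = ⁅(r₁ : G), (r₂ : G)⁆ ↔
      det2 (D.ψ q₁).toAdd (D.ψ q₂).toAdd = det2 (D.ψ r₁).toAdd (D.ψ r₂).toAdd := by
  haveI := D.char3
  letI : CommGroup D.Z :=
    { (inferInstance : Group D.Z) with mul_comm := fun a b => Subtype.ext (D.V_comm (D.Z_le a.2) (D.Z_le b.2)) }
  let sec : (Fin 2 → F) → D.Q := fun x => Function.surjInv D.ψ_surj (Multiplicative.ofAdd x)
  have hsec : ∀ x, (D.ψ (sec x)).toAdd = x := fun x => by
    rw [Function.surjInv_eq D.ψ_surj]; rfl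
  let b : (Fin 2 → F) → (Fin 2 → F) → D.Z := fun x y =>
    ⟨⁅((sec x : D.Q) : G), ((sec y : D.Q) : G)⁆, D.comm_mem_Z _ (sec x).2 _ (sec y).2⟩
  have hβ : ∀ q q' : D.Q, ⁅(q : G), (q' : G)⁆ = D.beta (D.clQ q) (D.clQ q') := fun q q' =>
    (D.beta_cl (Subgroup.inclusion D.Q_le_R q) (Subgroup.inclusion D.Q_le_R q')).symm
  have hb : ∀ q q' : D.Q, ⁅(q : G), (q' : G)⁆ = (b (D.ψ q).toAdd (D.ψ q').toAdd : G) := by
    intro q q'
    have he : ∀ q : D.Q, D.clQ (sec (D.ψ q).toAdd) = D.clQ q := fun q => by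
      rw [← div_eq_one, ← map_div, D.clQ_eq_one_iff, map_div, div_eq_one]
      exact Multiplicative.toAdd.injective (hsec _)
    show _ = ⁅_, _⁆
    rw [hβ, hβ, he, he]
  have hl : ∀ x x' y, b (x + x') y = b x y * b x' y := fun x x' y => by
    refine Subtype.ext ?_
    rw [Subgroup.coe_mul]
    have h := hb (sec x * sec x') (sec y)
    rw [map_mul, toAdd_mul, hsec, hsec, hsec] at h
    rw [← h, hβ, map_mul, D.beta_mul_left, ← hβ, ← hβ]
  have hr : ∀ x y y', b x (y + y') = b x y * b x y' := fun x y y' => by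
    refine Subtype.ext ?_
    rw [Subgroup.coe_mul]
    have h := hb (sec x) (sec y * sec y')
    rw [map_mul, toAdd_mul, hsec, hsec, hsec] at h
    rw [← h, hβ, map_mul, D.beta_mul_right, ← hβ, ← hβ]
  obtain ⟨f, hf⟩ := exists_det_factor b hl hr (fun x => Subtype.ext (commutatorElement_self _)) (by
    intro g hg x y
    rw [← D.ρ_range] at hg
    obtain ⟨e, rfl⟩ := hg
    refine Subtype.ext ?_
    have hq : ∀ q : D.Q, (e : G) * q * (e : G)⁻¹ ∈ D.Q := fun q =>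
      (Subgroup.mem_normalizer_iff.1 (D.E_norm_Q e.2) _).1 q.2
    have h := hb ⟨_, hq (sec x)⟩ ⟨_, hq (sec y)⟩
    rw [D.ρ_ψ e (sec x) ⟨_, hq (sec x)⟩ rfl, D.ρ_ψ e (sec y) ⟨_, hq (sec y)⟩ rfl, hsec, hsec] at h
    rw [← h]
    show ⁅(e : G) * _ * (e : G)⁻¹, (e : G) * _ * (e : G)⁻¹⁆ = ⁅((sec x : D.Q) : G), ((sec y : D.Q) : G)⁆
    rw [← conjugate_commutatorElement, D.E_central_Z e e.2 _ (D.comm_mem_Z _ (sec x).2 _ (sec y).2),
      mul_inv_cancel_right])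
  let f' : Multiplicative F →* D.Z := MonoidHom.mk' (fun d => f d.toAdd) (fun d d' => by
    have h := hl ![d.toAdd, 0] ![d'.toAdd, 0] ![0, 1]
    rw [hf, hf, hf] at h
    simpa [det2] using h)
  have hsurj : Function.Surjective f' := by
    rw [← MonoidHom.range_eq_top]
    refine eq_top_iff.2 fun z _ => ?_
    have hle : ⁅D.Q, D.Q⁆ ≤ f'.range.map D.Z.subtype := by
      rw [Subgroup.commutator_le]
      intro q hq q' hq'
      exact ⟨b (D.ψ ⟨q, hq⟩).toAdd (D.ψ ⟨q', hq'⟩).toAdd,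
        ⟨Multiplicative.ofAdd (det2 (D.ψ ⟨q, hq⟩).toAdd (D.ψ ⟨q', hq'⟩).toAdd), (hf _ _).symm⟩,
        (hb ⟨q, hq⟩ ⟨q', hq'⟩).symm⟩
    obtain ⟨z', hz', he⟩ := hle (D.Z_eq z.2)
    exact Subtype.ext he ▸ hz'
  have hbij : Function.Bijective f' := (Nat.bijective_iff_surjective_and_card f').2
    ⟨hsurj, by rw [D.card_Z]; exact Nat.card_congr Multiplicative.toAdd⟩
  rw [hb q₁ q₂, hb r₁ r₂, Subtype.coe_inj, hf, hf]
  exact ⟨fun h => Multiplicative.ofAdd.injective (hbij.1 h), fun h => by rw [h]⟩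

theorem det2_eq_zero_of_orth [Finite G] [Finite F] {p p' : D.P} (h : D.Orth p p') :
    det2 (D.ψP p).toAdd (D.ψP p').toAdd = 0 := by
  obtain ⟨_, q, rfl⟩ := p
  obtain ⟨_, q', rfl⟩ := p'
  rw [D.ψP_clQ q, D.ψP_clQ q']
  have hβ : D.beta (D.clQ q) (D.clQ q') = ⁅(q : G), (q' : G)⁆ := D.beta_cl _ _
  have h1 : ⁅(q : G), (q' : G)⁆ = 1 := by
    rw [← Subgroup.mem_bot, ← D.U_inf_Z]
    exact ⟨hβ ▸ h, D.comm_mem_Z _ q.2 _ q'.2⟩
  have h2 := (D.comm_eq_iff q q' 1 1).1 (by rw [h1, Subgroup.coe_one, commutatorElement_self])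
  rw [h2, map_one, toAdd_one]
  simp [det2]

/-- An element centralizing `V / U` and leaving the inverted part invariant acts on it in `SL₂`. -/
theorem exists_isPhi [Finite G] [Finite F] {g : G} (hg : g ∈ D.L0) (hP : ∀ a ∈ D.P, D.act g a ∈ D.P) :
    ∃ s, D.IsPhi g s := by
  have hs : Function.Surjective D.ψP := D.ψP_bij.2
  let f : D.P →* D.P :=
    MonoidHom.mk' (fun p => ⟨D.act g p, hP p p.2⟩) (fun a b => Subtype.ext (map_mul (D.act g) _ _))
  let e : D.P ≃* Multiplicative (Fin 2 → F) := MulEquiv.ofBijective D.ψP D.ψP_bij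
  let d : (Fin 2 → F) →+ (Fin 2 → F) :=
    AddMonoidHom.mk' (fun x => (D.ψP (f (e.symm (Multiplicative.ofAdd x)))).toAdd)
      (fun x y => by rw [ofAdd_add, map_mul, map_mul, map_mul, toAdd_mul])
  have hd : ∀ p : D.P, d (D.ψP p).toAdd = (D.ψP (f p)).toAdd := fun p => by
    show (D.ψP (f (e.symm (e p)))).toAdd = _
    rw [MulEquiv.symm_apply_apply]
  obtain ⟨r, hr⟩ := exists_sl_of_det2 d (fun x y => by
    obtain ⟨⟨_, q₁, rfl⟩, hp⟩ := hs (Multiplicative.ofAdd x)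
    obtain ⟨⟨_, q₂, rfl⟩, hp'⟩ := hs (Multiplicative.ofAdd y)
    obtain ⟨r₁, hr₁⟩ := hP _ (D.clQ_mem q₁)
    obtain ⟨r₂, hr₂⟩ := hP _ (D.clQ_mem q₂)
    have hx : x = (D.ψ q₁).toAdd := by rw [← D.ψP_clQ]; exact congrArg Multiplicative.toAdd hp.symm
    have hy : y = (D.ψ q₂).toAdd := by rw [← D.ψP_clQ]; exact congrArg Multiplicative.toAdd hp'.symm
    have e1 : d x = (D.ψ r₁).toAdd := by
      rw [hx, ← D.ψP_clQ q₁, hd, ← D.ψP_clQ r₁]
      exact congrArg (fun p => (D.ψP p).toAdd) (Subtype.ext hr₁.symm)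
    have e2 : d y = (D.ψ r₂).toAdd := by
      rw [hy, ← D.ψP_clQ q₂, hd, ← D.ψP_clQ r₂]
      exact congrArg (fun p => (D.ψP p).toAdd) (Subtype.ext hr₂.symm)
    rw [e1, e2, hx, hy, ← D.comm_eq_iff r₁ r₂ q₁ q₂]
    have h := D.beta_act_mul_inv hg (D.clQ q₁) (D.clQ q₂)
    rw [← hr₁, ← hr₂] at h
    have b1 : D.beta (D.clQ r₁) (D.clQ r₂) = ⁅(r₁ : G), (r₂ : G)⁆ := D.beta_cl _ _
    have b2 : D.beta (D.clQ q₁) (D.clQ q₂) = ⁅(q₁ : G), (q₂ : G)⁆ := D.beta_cl _ _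
    rw [b1, b2] at h
    refine mul_inv_eq_one.1 ?_
    rw [← Subgroup.mem_bot, ← D.U_inf_Z]
    exact Subgroup.mem_inf.2 ⟨h, mul_mem (D.comm_mem_Z _ r₁.2 _ r₂.2) (inv_mem (D.comm_mem_Z _ q₁.2 _ q₂.2))⟩)
  exact ⟨r, fun p => ⟨hP p p.2, (hd p).symm.trans (hr _)⟩⟩

end Exc

end CfsgLib.BaumannBlock.CentModule
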