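import Mathlib
import Cfsg.Agent.BaumannBlock.CentModule.Pairing
import Cfsg.Agent.LocalP.Basic

/-!
No element separates the two natural sections of an exceptional block: it would split the module
`Q / Z` for an element of the Baumann subgroup, which would then act quadratically.
-/

set_option autoImplicit false

open scoped MatrixGroups commutatorElement

namespace CfsgLib.BaumannBlock.CentModule

open Cfsg

variable {G : Type*} [Group G] {E B : Subgroup G} {F : Type} [Field F] (D : Exc E B F)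

/-- A `p'`-element centralizing a subgroup and moving `y` only by a `p`-element of it fixes `y`. -/
theorem commute_of_stabilizes {p : ℕ} {x y z : G} (hcop : (orderOf x).Coprime p)
    (hy : x * y * x⁻¹ = z * y) (hz : x * z = z * x) (hp : ∃ k, z ^ p ^ k = 1) : x * y = y * x := by
  have h : ∀ m : ℕ, x ^ m * y * (x ^ m)⁻¹ = z ^ m * y := by
    intro m
    induction m with
    | zero => simp
    | succ m ih =>
      calc x ^ (m + 1) * y * (x ^ (m + 1))⁻¹ = x * (x ^ m * y * (x ^ m)⁻¹) * x⁻¹ := by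
            rw [pow_succ']; group
        _ = x * (z ^ m * y) * x⁻¹ := by rw [ih]
        _ = (x * z ^ m) * y * x⁻¹ := by group
        _ = (z ^ m * x) * y * x⁻¹ := by rw [((show Commute x z from hz).pow_right m).eq]
        _ = z ^ m * (x * y * x⁻¹) := by group
        _ = z ^ (m + 1) * y := by rw [hy, pow_succ, mul_assoc]
  have h1 := h (orderOf x)
  rw [pow_orderOf_eq_one, one_mul, inv_one, mul_one, eq_comm, mul_eq_right] at h1
  obtain ⟨k, hk⟩ := hp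
  have h2 : z = 1 := orderOf_eq_one_iff.1
    (Nat.eq_one_of_dvd_coprimes (hcop.pow_right k) (orderOf_dvd_of_pow_eq_one h1) (orderOf_dvd_of_pow_eq_one hk))
  rw [h2, one_mul, mul_inv_eq_iff_eq_mul] at hy
  exact hy

namespace Exc

/-- The elements centralizing `U`, `V / U` and `O / R`. -/
def C2 : Subgroup G := Subgroup.centralizer (D.U : Set G) ⊓ D.L0 ⊓ D.KO

/-- Those of them acting trivially on the section. -/
def K2 : Subgroup G := D.C2 ⊓ D.act.ker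

theorem mem_C2 {g : G} : g ∈ D.C2 ↔ g ∈ Subgroup.centralizer (D.U : Set G) ∧ g ∈ D.L0 ∧ g ∈ D.KO :=
  ⟨fun h => ⟨h.1.1, h.1.2, h.2⟩, fun h => ⟨⟨h.1, h.2.1⟩, h.2.2⟩⟩

theorem conj_mem_L0 {g x : G} (hg : g ∈ Subgroup.normalizer (D.U : Set G)) (hx : x ∈ D.L0) :
    g * x * g⁻¹ ∈ D.L0 := by
  refine ⟨mul_mem (mul_mem hg hx.1) (inv_mem hg), fun v hv => ?_⟩
  have h := (Subgroup.mem_normalizer_iff.1 hg _).1 (hx.2 _ (D.normal_V.conj_mem v hv g⁻¹))
  simpa [mul_assoc] using h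

theorem normalizer_U_le_C2 : Subgroup.normalizer (D.U : Set G) ≤ Subgroup.normalizer (D.C2 : Set G) := by
  have key : ∀ g ∈ Subgroup.normalizer (D.U : Set G), ∀ x ∈ D.C2, g * x * g⁻¹ ∈ D.C2 := by
    intro g hg x hx
    obtain ⟨h1, h2, h3⟩ := D.mem_C2.1 hx
    refine D.mem_C2.2 ⟨Subgroup.mem_centralizer_iff.2 fun u hu => ?_, D.conj_mem_L0 hg h2,
      D.KO_normal.conj_mem _ h3 g⟩
    have h4 := Subgroup.mem_centralizer_iff.1 h1 _ ((Subgroup.mem_normalizer_iff.1 (inv_mem hg) u).1 hu)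
    rw [inv_inv] at h4
    calc u * (g * x * g⁻¹) = g * ((g⁻¹ * u * g) * x) * g⁻¹ := by group
      _ = g * (x * (g⁻¹ * u * g)) * g⁻¹ := by rw [h4]
      _ = g * x * g⁻¹ * u := by group
  intro g hg
  rw [Subgroup.mem_normalizer_iff]
  exact fun x => ⟨key g hg x, fun h => by simpa [mul_assoc] using key g⁻¹ (inv_mem hg) _ h⟩

theorem normalizer_U_le_K2 : Subgroup.normalizer (D.U : Set G) ≤ Subgroup.normalizer (D.K2 : Set G) := by
  intro g hg
  have h1 := D.normalizer_U_le_C2 hg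
  rw [Subgroup.mem_normalizer_iff]
  intro x
  constructor
  · exact fun hx => ⟨(Subgroup.mem_normalizer_iff.1 h1 x).1 hx.1,
      (inferInstance : D.act.ker.Normal).conj_mem _ hx.2 g⟩
  · intro hx
    refine ⟨(Subgroup.mem_normalizer_iff.1 h1 x).2 hx.1, ?_⟩
    have := (inferInstance : D.act.ker.Normal).conj_mem _ hx.2 g⁻¹
    simpa [mul_assoc] using this

theorem isPGroup_K2 [Finite G] : IsPGroup 3 D.K2 := by
  haveI : Fact (Nat.Prime 3) := ⟨Nat.prime_three⟩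
  refine CfsgLib.LocalP.isPGroup_of_forall_coprime _ fun x hx hcop => ?_
  obtain ⟨hC, hker⟩ := hx
  obtain ⟨hU, hL, hKO⟩ := D.mem_C2.1 hC
  have hpk : ∀ z ∈ D.O, ∃ k, z ^ 3 ^ k = 1 := fun z hz => by
    obtain ⟨k, hk⟩ := D.pgroup_O ⟨z, hz⟩
    exact ⟨k, by simpa [Subtype.ext_iff] using hk⟩
  have hV : ∀ v ∈ D.V, x * v = v * x := fun v hv =>
    commute_of_stabilizes hcop (inv_mul_cancel_right _ _).symm
      (Subgroup.mem_centralizer_iff.1 hU _ (hL.2 v hv)).symm (hpk _ (D.V_le (D.U_le (hL.2 v hv))))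
  have hR : ∀ r ∈ D.R, x * r = r * x := fun r hr => by
    have h : x * r * x⁻¹ * r⁻¹ ∈ D.V := by
      have h1 := DFunLike.congr_fun (MonoidHom.mem_ker.1 hker) (D.cl ⟨r, hr⟩)
      rw [D.act_cl, MulAut.one_apply, D.cl_eq_iff] at h1
      have h2 := D.normal_V.conj_mem _ (inv_mem h1) r
      simpa [mul_assoc] using h2
    exact commute_of_stabilizes hcop (inv_mul_cancel_right _ _).symm (hV _ h) (hpk _ (D.V_le h))
  have hO : ∀ o ∈ D.O, x * o = o * x := fun o ho =>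
    commute_of_stabilizes hcop (inv_mul_cancel_right _ _).symm (hR _ (hKO o ho)) (hpk _ (D.R_le (hKO o ho)))
  exact CfsgLib.LocalP.eq_one_of_mem_of_coprime D.pgroup_O
    (D.self_centralizing (Subgroup.mem_centralizer_iff.2 fun o ho => (hO o ho).symm)) hcop

theorem mulVec_ψU (e : E) (u : D.U) :
    ∃ u' : D.U, (u' : G) = (e : G) * u * (e : G)⁻¹ ∧ (D.ψU u').toAdd = (D.ρU e).1.mulVec (D.ψU u).toAdd :=
  ⟨⟨_, (Subgroup.mem_normalizer_iff.1 (D.E_norm_U e.2) _).1 u.2⟩, rfl, D.ρU_ψ e u _ rfl⟩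

theorem conj_t_U {u : G} (hu : u ∈ D.U) : D.t * u * D.t⁻¹ = u⁻¹ := by
  obtain ⟨u', hu', h⟩ := D.mulVec_ψU ⟨D.t, D.t_mem⟩ ⟨u, hu⟩
  rw [D.ρU_t, neg_mulVec] at h
  have : u' = (⟨u, hu⟩ : D.U)⁻¹ := D.ψU_bij.1 (by
    rw [map_inv]
    exact Multiplicative.toAdd.injective (by rw [toAdd_inv]; exact h))
  rw [← hu', this]
  rfl

/-- `V = U C_V(E)`. -/
theorem V_decomp {v : G} (hv : v ∈ D.V) :
    ∃ u ∈ D.U, ∃ c ∈ D.V ⊓ Subgroup.centralizer (E : Set G), v = u * c := by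
  set u := D.t * v * D.t⁻¹ * v⁻¹ with hu
  have huU : u ∈ D.U := (D.E_le_L0 D.t_mem).2 v hv
  refine ⟨u, huU, u⁻¹ * v, Subgroup.mem_inf.2 ⟨mul_mem (inv_mem (D.U_le huU)) hv, ?_⟩, (mul_inv_cancel_left _ _).symm⟩
  have hc : u⁻¹ * v ∈ D.V := mul_mem (inv_mem (D.U_le huU)) hv
  -- it is fixed by the involution
  have hfix : D.t * (u⁻¹ * v) * D.t⁻¹ = u⁻¹ * v := by
    have h3 := D.V_pow u (D.U_le huU)
    rw [pow_succ, pow_two] at h3
    have htv : D.t * v * D.t⁻¹ = u * v := by rw [hu]; group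
    have htu : D.t * u⁻¹ * D.t⁻¹ = u := by
      rw [← conj_inv, D.conj_t_U huU, inv_inv]
    calc D.t * (u⁻¹ * v) * D.t⁻¹ = (D.t * u⁻¹ * D.t⁻¹) * (D.t * v * D.t⁻¹) := by group
      _ = u * u * u * (u⁻¹ * v) := by rw [htu, htv]; group
      _ = u⁻¹ * v := by rw [h3, one_mul]
  refine Subgroup.mem_centralizer_iff.2 fun e he => ?_
  -- `[c, e]` lies in `U` and is fixed by the involution
  have hw : e * (u⁻¹ * v) * e⁻¹ * (u⁻¹ * v)⁻¹ ∈ D.U := (D.E_le_L0 he).2 _ hc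
  set c := u⁻¹ * v with hcdef
  set w := e * c * e⁻¹ * c⁻¹ with hwdef
  have htw : D.t * w * D.t⁻¹ = w := by
    -- the commutator of `e` with `t` acts trivially on `V`
    have hq : ⁅e, D.t⁆ ∈ D.Q := (D.ρ_ker ⁅(⟨e, he⟩ : E), ⟨D.t, D.t_mem⟩⁆).1 (by
      rw [map_commutatorElement, D.ρ_t, commutatorElement_eq_one_iff_mul_comm, mul_neg_one, neg_one_mul])
    have hec : e * (D.t * c * D.t⁻¹) * e⁻¹ = D.t * (e * c * e⁻¹) * D.t⁻¹ := by
      have h1 := D.V_central _ (D.normal_V.conj_mem _ (D.normal_V.conj_mem c hc e) D.t) _ (D.Q_le hq)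
      calc e * (D.t * c * D.t⁻¹) * e⁻¹
          = ⁅e, D.t⁆ * (D.t * (e * c * e⁻¹) * D.t⁻¹) * ⁅e, D.t⁆⁻¹ := by
            rw [commutatorElement_def]; group
        _ = D.t * (e * c * e⁻¹) * D.t⁻¹ := by rw [← h1, mul_inv_cancel_right]
    rw [hfix] at hec
    calc D.t * w * D.t⁻¹ = D.t * (e * c * e⁻¹) * D.t⁻¹ * (D.t * c * D.t⁻¹)⁻¹ := by rw [hwdef]; group
      _ = w := by rw [← hec, hfix, hwdef]
  have hw1 : w = 1 := by
    rw [D.conj_t_U hw] at htw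
    exact eq_one_of_sq (D.V_pow _ (D.U_le hw)) (mul_eq_one_iff_eq_inv.2 htw.symm)
  rw [hwdef, mul_inv_eq_one, mul_inv_eq_iff_eq_mul] at hw1
  exact hw1

theorem U_inf_centralizer {u : G} (hu : u ∈ D.U) (hc : u ∈ Subgroup.centralizer (E : Set G)) : u = 1 := by
  have h1 := Subgroup.mem_centralizer_iff.1 hc D.t D.t_mem
  have h2 := D.conj_t_U hu
  rw [h1, mul_inv_cancel_right] at h2
  exact eq_one_of_sq (D.V_pow _ (D.U_le hu)) (mul_eq_one_iff_eq_inv.2 h2)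

theorem B_le_normalizer_CV : B ≤ Subgroup.normalizer ((D.V ⊓ Subgroup.centralizer (E : Set G) : Subgroup G) : Set G) := by
  intro b hb
  have hbE := D.B_norm_E hb
  have hV : b ∈ Subgroup.normalizer (D.V : Set G) := by
    rw [Subgroup.normalizer_eq_top_iff.2 D.normal_V]; exact Subgroup.mem_top b
  have hC : (Subgroup.centralizer (E : Set G)).map (MulAut.conj b).toMonoidHom =
      Subgroup.centralizer (E : Set G) := by
    rw [← map_centralizer]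
    exact congrArg (fun K : Subgroup G => Subgroup.centralizer (K : Set G))
      (Subgroup.mem_normalizer_iff_map_conj_eq.1 hbE)
  rw [Subgroup.mem_normalizer_iff_map_conj_eq, Subgroup.map_inf _ _ _ (MulAut.conj b).injective]
  exact congrArg₂ (· ⊓ ·) (Subgroup.mem_normalizer_iff_map_conj_eq.1 hV) hC

/-- An element of `B` of order dividing three acting quadratically on `U` does so on the inverted part. -/
theorem quad_P [Finite G] [Finite F] {a : G} (ha : a ∈ B) (ha3 : a ^ 3 = 1)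
    (hq : ∀ u ∈ D.U, ⁅⁅u, a⁆, a⁆ = 1) : ∀ q ∈ D.Q, ⁅⁅q, a⁆, a⁆ ∈ D.V := by
  haveI := D.char3
  have haE := D.B_norm_E ha
  have haU := D.B_norm_U ha
  have haQ := D.B_norm_Q ha
  let αU : D.U → D.U := fun u => ⟨a * u * a⁻¹, (Subgroup.mem_normalizer_iff.1 haU _).1 u.2⟩
  let αQ : D.Q → D.Q := fun q => ⟨a * q * a⁻¹, (Subgroup.mem_normalizer_iff.1 haQ _).1 q.2⟩
  let αE : E → E := fun e => ⟨a * e * a⁻¹, (Subgroup.mem_normalizer_iff.1 haE _).1 e.2⟩
  have hαU : ∀ u u', αU (u * u') = αU u * αU u' := fun u u' => Subtype.ext (by simp [αU, mul_assoc])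
  have hαQ : ∀ u u', αQ (u * u') = αQ u * αQ u' := fun u u' => Subtype.ext (by simp [αQ, mul_assoc])
  let eU : D.U ≃* Multiplicative (Fin 2 → F) := MulEquiv.ofBijective D.ψU D.ψU_bij
  let TU₀ : (Fin 2 → F) →+ (Fin 2 → F) :=
    AddMonoidHom.mk' (fun x => (D.ψU (αU (eU.symm (Multiplicative.ofAdd x)))).toAdd)
      (fun x y => by rw [ofAdd_add, map_mul, hαU, map_mul, toAdd_mul])
  have hTU : ∀ u : D.U, TU₀ (D.ψU u).toAdd = (D.ψU (αU u)).toAdd := fun u => by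
    show (D.ψU (αU (eU.symm (eU u)))).toAdd = _
    rw [MulEquiv.symm_apply_apply]
  have ha3' : a * (a * a) = 1 := by rw [← mul_assoc, ← pow_two, ← pow_succ, ha3]
  have hcube : ∀ u, TU₀ (TU₀ (TU₀ u)) = u := fun x => by
    obtain ⟨u, hu⟩ := D.ψU_bij.2 (Multiplicative.ofAdd x)
    have : x = (D.ψU u).toAdd := by rw [hu]; rfl
    rw [this, hTU, hTU, hTU]
    congr 2
    apply Subtype.ext
    show a * (a * (a * (u : G) * a⁻¹) * a⁻¹) * a⁻¹ = u
    calc a * (a * (a * (u : G) * a⁻¹) * a⁻¹) * a⁻¹ = a * (a * a) * u * (a * (a * a))⁻¹ := by group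
      _ = u := by rw [ha3']; group
  let TU : (Fin 2 → F) ≃+ (Fin 2 → F) :=
    { toFun := TU₀, invFun := fun x => TU₀ (TU₀ x), left_inv := hcube, right_inv := hcube, map_add' := map_add TU₀ }
  -- the additive map on the inverted part
  let sec : (Fin 2 → F) → D.Q := fun x => Function.surjInv D.ψ_surj (Multiplicative.ofAdd x)
  have hsec : ∀ x, (D.ψ (sec x)).toAdd = x := fun x => by rw [Function.surjInv_eq D.ψ_surj]; rfl
  have hψα : ∀ q q' : D.Q, D.ψ q = D.ψ q' → D.ψ (αQ q) = D.ψ (αQ q') := by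
    intro q q' h
    have h1 : D.ψ (q⁻¹ * q') = 1 := by rw [map_mul, map_inv, h, inv_mul_cancel]
    have h2 : D.ψ (αQ (q⁻¹ * q')) = 1 := (D.ψ_ker _).2 (D.normal_V.conj_mem _ ((D.ψ_ker _).1 h1) a)
    have h3 : αQ q * αQ (q⁻¹ * q') = αQ q' := by rw [← hαQ, mul_inv_cancel_left]
    rw [← h3, map_mul, h2, mul_one]
  let TQ : (Fin 2 → F) →+ (Fin 2 → F) :=
    AddMonoidHom.mk' (fun x => (D.ψ (αQ (sec x))).toAdd) (fun x y => by
      rw [hψα (sec (x + y)) (sec x * sec y) (Multiplicative.toAdd.injective (by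
        rw [map_mul, toAdd_mul, hsec, hsec, hsec])), hαQ, map_mul, toAdd_mul])
  have hTQ : ∀ q : D.Q, TQ (D.ψ q).toAdd = (D.ψ (αQ q)).toAdd := fun q =>
    congrArg Multiplicative.toAdd (hψα _ _ (Multiplicative.toAdd.injective (hsec _)))
  have hTQ3 : ∀ x, TQ (TQ (TQ x)) = x := fun x => by
    rw [← hsec x, hTQ, hTQ, hTQ]
    congr 2
    apply Subtype.ext
    show a * (a * (a * (sec x : G) * a⁻¹) * a⁻¹) * a⁻¹ = sec x
    calc a * (a * (a * (sec x : G) * a⁻¹) * a⁻¹) * a⁻¹ = a * (a * a) * sec x * (a * (a * a))⁻¹ := by group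
      _ = sec x := by rw [ha3']; group
  have hcompU : ∀ (e : E) x, TU ((D.ρU e).1.mulVec x) = (D.ρU (αE e)).1.mulVec (TU x) := by
    intro e x
    obtain ⟨u, hu⟩ := D.ψU_bij.2 (Multiplicative.ofAdd x)
    have hx : x = (D.ψU u).toAdd := by rw [hu]; rfl
    obtain ⟨u', hu', hv⟩ := D.mulVec_ψU e u
    show TU₀ _ = _
    rw [hx, ← hv, hTU, show TU (D.ψU u).toAdd = _ from hTU u]
    refine D.ρU_ψ (αE e) (αU u) (αU u') ?_
    show a * (u' : G) * a⁻¹ = a * (e : G) * a⁻¹ * (a * u * a⁻¹) * (a * (e : G) * a⁻¹)⁻¹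
    rw [hu']; group
  have hcompQ : ∀ (e : E) x, TQ ((D.ρ e).1.mulVec x) = (D.ρ (αE e)).1.mulVec (TQ x) := by
    intro e x
    have hq : (e : G) * sec x * (e : G)⁻¹ ∈ D.Q := (Subgroup.mem_normalizer_iff.1 (D.E_norm_Q e.2) _).1 (sec x).2
    have hv := D.ρ_ψ e (sec x) ⟨_, hq⟩ rfl
    rw [hsec] at hv
    conv_lhs => rw [← hv, hTQ]
    rw [show TQ x = TQ (D.ψ (sec x)).toAdd by rw [hsec], hTQ]
    refine D.ρ_ψ (αE e) (αQ (sec x)) (αQ ⟨_, hq⟩) ?_
    show a * ((e : G) * sec x * (e : G)⁻¹) * a⁻¹ = a * (e : G) * a⁻¹ * (a * sec x * a⁻¹) * (a * (e : G) * a⁻¹)⁻¹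
    group
  suffices hgoal : ∀ x, TQ (TQ x - x) = TQ x - x by
    intro q hq'
    have hb : ∀ w : D.Q, ⁅(w : G), a⁆ ∈ D.Q := fun w => by
      have := mul_mem w.2 ((Subgroup.mem_normalizer_iff.1 haQ _).1 (inv_mem w.2))
      rwa [← mul_assoc, ← mul_assoc, ← commutatorElement_def] at this
    have h1 : ∀ w : D.Q, (D.ψ ⟨_, hb w⟩).toAdd = (D.ψ w).toAdd - TQ (D.ψ w).toAdd := fun w => by
      have he : (⟨⁅(w : G), a⁆, hb w⟩ : D.Q) = w * (αQ w)⁻¹ := Subtype.ext (by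
        show ⁅(w : G), a⁆ = w * (a * (w : G) * a⁻¹)⁻¹
        rw [commutatorElement_def]; group)
      rw [he, map_mul, map_inv, toAdd_mul, toAdd_inv, hTQ, sub_eq_add_neg]
    have h2 := h1 ⟨_, hb ⟨q, hq'⟩⟩
    rw [h1 ⟨q, hq'⟩] at h2
    refine (D.ψ_ker ⟨_, hb ⟨_, hb ⟨q, hq'⟩⟩⟩).1 (Multiplicative.toAdd.injective ?_)
    rw [h2, toAdd_one, sub_eq_zero]
    rw [← neg_sub, map_neg, hgoal]
  by_cases hbig : ∃ t : F, t ≠ 0 ∧ t * t ≠ 1
  · have hquadU : ∀ x, TU (TU x - x) = TU x - x := by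
      intro x
      obtain ⟨u, hu⟩ := D.ψU_bij.2 (Multiplicative.ofAdd x)
      have hx : x = (D.ψU u).toAdd := by rw [hu]; rfl
      have h := hq u u.2
      rw [commutatorElement_eq_one_iff_mul_comm, commutatorElement_def] at h
      have he : αU (αU u * u⁻¹) = αU u * u⁻¹ := by
        have h' : Commute ((u : G) * a * (u : G)⁻¹ * a⁻¹) a := h
        have h'' := h'.inv_left.eq
        apply Subtype.ext
        show a * (a * (u : G) * a⁻¹ * (u : G)⁻¹) * a⁻¹ = a * (u : G) * a⁻¹ * (u : G)⁻¹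
        rw [show a * (u : G) * a⁻¹ * (u : G)⁻¹ = ((u : G) * a * (u : G)⁻¹ * a⁻¹)⁻¹ by group, ← h'',
          mul_inv_cancel_right]
      show TU₀ (TU₀ x - x) = TU₀ x - x
      rw [hx, hTU, ← toAdd_div, div_eq_mul_inv, ← map_inv, ← map_mul, hTU, he]
    obtain ⟨g, hg, hgT⟩ := exists_mem_of_quadratic TU hbig (fun g hg => by
      rw [← D.ρU_range] at hg ⊢
      obtain ⟨e, rfl⟩ := hg
      exact ⟨_, ⟨αE e, rfl⟩, hcompU e⟩) hquadU
    rw [← D.ρU_range] at hg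
    obtain ⟨e₀, rfl⟩ := hg
    have hconj : ∀ e : E, D.ρ (αE e) = D.ρ e₀ * D.ρ e * (D.ρ e₀)⁻¹ := by
      intro e
      have h1 : D.ρU (αE e) * D.ρU e₀ = D.ρU e₀ * D.ρU e := mulVec_injective fun x => by
        rw [Matrix.SpecialLinearGroup.coe_mul, Matrix.SpecialLinearGroup.coe_mul, ← Matrix.mulVec_mulVec,
          ← Matrix.mulVec_mulVec, ← hgT, ← hcompU, hgT]
      have h2 : D.ρU (αE e * (e₀ * e * e₀⁻¹)⁻¹) = 1 := by
        rw [map_mul, map_inv, map_mul, map_mul, map_inv, eq_mul_inv_of_mul_eq h1, mul_inv_cancel]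
      have h3 := (D.ρ_ker _).2 ((D.ρU_ker _).1 h2)
      rwa [map_mul, map_inv, mul_inv_eq_one, map_mul, map_mul, map_inv] at h3
    set g' := D.ρ e₀ with hg'
    let S : (Fin 2 → F) →+ (Fin 2 → F) := (Matrix.mulVecLin g'⁻¹.1).toAddMonoidHom.comp TQ
    obtain ⟨l, hl⟩ := commutant_scalar S hbig (fun g hg x => by
      rw [← D.ρ_range] at hg
      obtain ⟨e, rfl⟩ := hg
      show g'⁻¹.1.mulVec (TQ _) = (D.ρ e).1.mulVec (g'⁻¹.1.mulVec (TQ x))
      rw [hcompQ, hconj, Matrix.mulVec_mulVec, Matrix.mulVec_mulVec, ← Matrix.SpecialLinearGroup.coe_mul,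
        ← Matrix.SpecialLinearGroup.coe_mul, mul_assoc g', inv_mul_cancel_left])
    have hT : ∀ x, TQ x = l • g'.1.mulVec x := fun x => by
      rw [← Matrix.mulVec_smul, ← hl]
      show TQ x = g'.1.mulVec (g'⁻¹.1.mulVec (TQ x))
      rw [Matrix.mulVec_mulVec, ← Matrix.SpecialLinearGroup.coe_mul, mul_inv_cancel,
        Matrix.SpecialLinearGroup.coe_one, Matrix.one_mulVec]
    have hg3U : D.ρU e₀ ^ 3 = 1 := mulVec_injective fun x => by
      rw [pow_succ, pow_two, Matrix.SpecialLinearGroup.coe_mul, Matrix.SpecialLinearGroup.coe_mul,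
        ← Matrix.mulVec_mulVec, ← Matrix.mulVec_mulVec, ← hgT, ← hgT, ← hgT, Matrix.SpecialLinearGroup.coe_one,
        Matrix.one_mulVec]
      exact hcube x
    have hg3 : g' ^ 3 = 1 := by
      rw [hg', ← map_pow, D.ρ_ker, ← D.ρU_ker, map_pow]; exact hg3U
    have hl1 : l = 1 := by
      have h := hTQ3 ![1, 0]
      rw [hT, hT, hT, Matrix.mulVec_smul, Matrix.mulVec_smul, Matrix.mulVec_smul, smul_smul, smul_smul,
        Matrix.mulVec_mulVec, Matrix.mulVec_mulVec, ← Matrix.SpecialLinearGroup.coe_mul,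
        ← Matrix.SpecialLinearGroup.coe_mul, show g' * g' * g' = g' ^ 3 by rw [pow_succ, pow_two], hg3,
        Matrix.SpecialLinearGroup.coe_one, Matrix.one_mulVec] at h
      have h0 := congrFun h 0
      simp at h0
      have h3 : (l - 1) ^ 3 = 0 := by rw [sub_pow_char, one_pow, pow_succ, pow_two, sub_eq_zero]; linear_combination h0
      exact sub_eq_zero.1 ((pow_eq_zero_iff (by norm_num)).1 h3)
    intro x
    rw [hT, hT, hl1, one_smul, one_smul]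
    exact quadratic_of_cube g' hg3 x
  · exact quadratic_of_small hbig TQ hTQ3

/-- No element separates the two sections. -/
theorem not_separated [Finite G] [Finite F] {x : G} (hx2 : ∃ k : ℕ, x ^ 2 ^ k = 1) (hxL : x ∈ D.L0)
    (hxK : x ∈ D.KO) {i j : ℤ} (hij : (i = -1 ∧ j = 1) ∨ (i = 1 ∧ j = -1))
    (hxU : ∀ u ∈ D.U, x * u * x⁻¹ = u ^ i)
    (hxQ : ∀ q ∈ D.Q, ∃ w ∈ D.V, x * q * x⁻¹ = q ^ j * w)
    (hcomm : ∀ b ∈ B, Commute (D.act x) (D.act b)) : False := by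
  obtain ⟨a, ha, haU, ha3, haq⟩ := D.exists_quad
  have hxN : x ∈ Subgroup.normalizer (D.U : Set G) := hxL.1
  have hBR : B ≤ Subgroup.normalizer (D.K2 : Set G) := D.B_norm_U.trans D.normalizer_U_le_K2
  have hxb : ∀ b ∈ B, x * b * x⁻¹ * b⁻¹ ∈ D.K2 := by
    intro b hb
    refine ⟨D.mem_C2.2 ⟨Subgroup.mem_centralizer_iff.2 fun u hu => ?_, ?_, ?_⟩, ?_⟩
    · have hb1 : b⁻¹ * u * b ∈ D.U := by
        simpa using (Subgroup.mem_normalizer_iff.1 (inv_mem (D.B_norm_U hb)) u).1 hu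
      have hiu : ∀ w ∈ D.U, x⁻¹ * w * x = w ^ i := fun w hw => by
        have h := hxU (w ^ i) (zpow_mem hw i)
        rw [← zpow_mul, show i * i = 1 by rcases hij with ⟨rfl, -⟩ | ⟨rfl, -⟩ <;> norm_num, zpow_one] at h
        nth_rw 1 [← h]
        group
      have key : (x * b * x⁻¹ * b⁻¹) * u * (x * b * x⁻¹ * b⁻¹)⁻¹ = u := by
        calc (x * b * x⁻¹ * b⁻¹) * u * (x * b * x⁻¹ * b⁻¹)⁻¹
            = x * (b * (x⁻¹ * (b⁻¹ * u * b) * x) * b⁻¹) * x⁻¹ := by group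
          _ = x * (b * (b⁻¹ * u * b) ^ i * b⁻¹) * x⁻¹ := by rw [hiu _ hb1]
          _ = x * u ^ i * x⁻¹ := by
              rw [← conj_zpow, show b * (b⁻¹ * u * b) * b⁻¹ = u by group]
          _ = (u ^ i) ^ i := hxU _ (zpow_mem hu i)
          _ = u := by
              rw [← zpow_mul, show i * i = 1 by rcases hij with ⟨rfl, -⟩ | ⟨rfl, -⟩ <;> norm_num, zpow_one]
      rw [mul_inv_eq_iff_eq_mul] at key
      exact key.symm
    · have := mul_mem hxL (D.conj_mem_L0 (D.B_norm_U hb) (inv_mem hxL))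
      rwa [← mul_assoc, ← mul_assoc] at this
    · have := mul_mem hxK (D.KO_normal.conj_mem _ (inv_mem hxK) b)
      rwa [← mul_assoc, ← mul_assoc] at this
    · show D.act (x * b * x⁻¹ * b⁻¹) = 1
      rw [map_mul, map_mul, map_mul, map_inv, map_inv, (hcomm b hb).eq,
        mul_inv_cancel_right, mul_inv_cancel]
  have hxB := D.norm_B D.K2 x D.isPGroup_K2 hBR hxb
  -- an element of `a (B ∩ K2)` commuting with `x`
  obtain ⟨b, hb, hbK, hbx⟩ : ∃ b ∈ B, a⁻¹ * b ∈ D.K2 ∧ x * b * x⁻¹ = b := by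
    let X := {y : G // y ∈ B ∧ a⁻¹ * y ∈ D.K2}
    have hmem : ∀ z ∈ Subgroup.zpowers x, ∀ y : X, z * (y : G) * z⁻¹ ∈ B ∧ a⁻¹ * (z * (y : G) * z⁻¹) ∈ D.K2 := by
      suffices h : Subgroup.zpowers x ≤ Subgroup.normalizer (B : Set G) ⊓ Subgroup.normalizer (D.K2 : Set G) ∧
          ∀ z ∈ Subgroup.zpowers x, a⁻¹ * (z * a * z⁻¹) ∈ D.K2 by
        intro z hz y
        refine ⟨(Subgroup.mem_normalizer_iff.1 (h.1 hz).1 _).1 y.2.1, ?_⟩
        have := mul_mem (h.2 z hz) ((Subgroup.mem_normalizer_iff.1 (h.1 hz).2 _).1 y.2.2)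
        convert this using 1
        group
      refine ⟨Subgroup.zpowers_le.2 ⟨hxB, D.normalizer_U_le_K2 hxN⟩, ?_⟩
      intro z hz
      obtain ⟨n, rfl⟩ := Submonoid.mem_powers_iff _ _ |>.1 (mem_powers_iff_mem_zpowers.2 hz)
      clear hz
      induction n with
      | zero => simp
      | succ n ih =>
        have hKx := fun {k : G} (hk : k ∈ D.K2) => (Subgroup.mem_normalizer_iff.1 (D.normalizer_U_le_K2 hxN) k).1 hk
        have h1 : a⁻¹ * (x * a * x⁻¹) ∈ D.K2 := by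
          have := (Subgroup.mem_normalizer_iff.1 (inv_mem (hBR ha)) _).1 (hxb a ha)
          simpa [mul_assoc] using this
        have := mul_mem h1 (hKx ih)
        convert this using 1
        rw [pow_succ']
        group
    letI : MulAction (Subgroup.zpowers x) X :=
      { smul := fun z y => ⟨(z : G) * y * (z : G)⁻¹, hmem z z.2 y⟩
        one_smul := fun y => Subtype.ext (show (1 : G) * (y : G) * (1 : G)⁻¹ = y by group)
        mul_smul := fun z z' y => Subtype.ext (show (z : G) * z' * y * ((z : G) * z')⁻¹ =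
          z * ((z' : G) * y * (z' : G)⁻¹) * (z : G)⁻¹ by group) }
    have h2 : IsPGroup 2 (Subgroup.zpowers x) := by
      obtain ⟨k, hk⟩ := hx2
      rintro ⟨_, n, rfl⟩
      refine ⟨k, Subtype.ext ?_⟩
      show (x ^ n) ^ (2 ^ k) = 1
      rw [← zpow_natCast, ← zpow_mul, mul_comm, zpow_mul, zpow_natCast, hk, one_zpow]
    have hcard : Nat.card X = Nat.card (B ⊓ D.K2 : Subgroup G) := Nat.card_congr
      { toFun := fun y => ⟨a⁻¹ * y, Subgroup.mem_inf.2 ⟨mul_mem (inv_mem ha) y.2.1, y.2.2⟩⟩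
        invFun := fun k => ⟨a * k, mul_mem ha k.2.1, by rw [inv_mul_cancel_left]; exact k.2.2⟩
        left_inv := fun y => Subtype.ext (mul_inv_cancel_left _ _)
        right_inv := fun k => Subtype.ext (inv_mul_cancel_left _ _) }
    haveI : Fact (Nat.Prime 2) := ⟨Nat.prime_two⟩
    haveI : Fact (Nat.Prime 3) := ⟨Nat.prime_three⟩
    haveI : Finite X := Finite.of_injective (fun y : X => (y : G)) Subtype.val_injective
    have hodd : ¬ 2 ∣ Nat.card X := by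
      obtain ⟨k, hk⟩ := IsPGroup.iff_card.1 (D.pgroup_B.to_le (inf_le_left : B ⊓ D.K2 ≤ B))
      rw [hcard, hk]
      exact fun h => by simpa using (Nat.prime_two.dvd_of_dvd_pow h)
    obtain ⟨y, hy⟩ := h2.nonempty_fixed_point_of_prime_not_dvd_card X hodd
    exact ⟨y, y.2.1, y.2.2, congrArg Subtype.val (hy ⟨x, Subgroup.mem_zpowers x⟩)⟩
  -- `b` acts on `U` and on the inverted part as `a` does
  have hbU : ∀ u ∈ D.U, b * u * b⁻¹ = a * u * a⁻¹ := fun u hu => by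
    have h := Subgroup.mem_centralizer_iff.1 (D.mem_C2.1 hbK.1).1 u hu
    calc b * u * b⁻¹ = a * ((a⁻¹ * b) * u) * (a⁻¹ * b)⁻¹ * a⁻¹ := by group
      _ = a * (u * (a⁻¹ * b)) * (a⁻¹ * b)⁻¹ * a⁻¹ := by rw [h]
      _ = a * u * a⁻¹ := by group
  have hbU' : b ∉ Subgroup.centralizer (D.U : Set G) := fun h => haU (by
    refine Subgroup.mem_centralizer_iff.2 fun u hu => ?_
    have h1 := hbU u hu
    rw [← Subgroup.mem_centralizer_iff.1 h u hu, mul_inv_cancel_right, eq_mul_inv_iff_mul_eq] at h1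
    exact h1)
  have hactb : D.act b = D.act a := by
    have h := MonoidHom.mem_ker.1 hbK.2
    rwa [map_mul, map_inv, inv_mul_eq_one, eq_comm] at h
  have hbQU : ∀ u ∈ D.U, ⁅⁅u, b⁆, b⁆ = 1 := fun u hu => by
    have e : ∀ w ∈ D.U, ⁅w, b⁆ = ⁅w, a⁆ := fun w hw => by
      rw [commutatorElement_def, commutatorElement_def, show w * b * w⁻¹ * b⁻¹ = w * (b * w⁻¹ * b⁻¹) by group,
        hbU _ (inv_mem hw)]
      group
    have hm : ⁅u, b⁆ ∈ D.U := by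
      have := mul_mem hu ((Subgroup.mem_normalizer_iff.1 (D.B_norm_U hb) _).1 (inv_mem hu))
      rwa [← mul_assoc, ← mul_assoc, ← commutatorElement_def] at this
    rw [e _ hm, e u hu]
    exact haq u hu
  have haQ := D.quad_P ha ha3 haq
  apply D.nonquad b hb hbU'
  intro q hq
  have hQb : ∀ g ∈ B, ∀ q ∈ D.Q, ⁅q, g⁆ ∈ D.Q := fun g hg q hq => by
    have := mul_mem hq ((Subgroup.mem_normalizer_iff.1 (D.B_norm_Q hg) _).1 (inv_mem hq))
    rwa [← mul_assoc, ← mul_assoc, ← commutatorElement_def] at this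
  have hclQ : ∀ g ∈ B, ∀ w : D.Q, ∀ h : ⁅(w : G), g⁆ ∈ D.Q,
      D.clQ ⟨_, h⟩ = D.clQ w * (D.act g (D.clQ w))⁻¹ := fun g hg w h => by
    show D.cl _ = D.cl _ * _
    rw [D.act_clQ g w ⟨_, (Subgroup.mem_normalizer_iff.1 (D.B_norm_Q hg) _).1 w.2⟩ rfl]
    show D.cl _ = D.cl _ * (D.cl _)⁻¹
    rw [← map_inv, ← map_mul]
    refine congrArg D.cl (Subtype.ext ?_)
    show ⁅(w : G), g⁆ = w * (g * (w : G) * g⁻¹)⁻¹
    rw [commutatorElement_def]; group
  have hv0V : ∀ q ∈ D.Q, ⁅⁅q, b⁆, b⁆ ∈ D.V := fun q hq => by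
    refine (D.ψ_ker ⟨_, hQb b hb _ (hQb b hb q hq)⟩).1 ((D.clQ_eq_one_iff _).1 ?_)
    rw [hclQ b hb ⟨_, hQb b hb q hq⟩, hclQ b hb ⟨q, hq⟩, hactb, ← hclQ a ha ⟨q, hq⟩ (hQb a ha q hq),
      ← hclQ a ha ⟨_, hQb a ha q hq⟩ (hQb a ha _ (hQb a ha q hq)), D.clQ_eq_one_iff, D.ψ_ker]
    exact haQ q hq
  set N := D.V ⊓ Subgroup.centralizer (E : Set G) with hN
  have hZN : D.Z ≤ N := fun z hz => ⟨D.Z_le hz, Subgroup.mem_centralizer_iff.2 fun e he => D.E_central_Z e he z hz⟩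
  have hbN := D.B_le_normalizer_CV hb
  -- quadratic on `V` modulo `C_V(E)`
  have hVN : ∀ w ∈ D.V, ⁅⁅w, b⁆, b⁆ ∈ N := fun w hw => by
    obtain ⟨u, hu, c, hc, rfl⟩ := D.V_decomp hw
    have hcb : ⁅c, b⁆ ∈ N := by
      have := mul_mem hc ((Subgroup.mem_normalizer_iff.1 hbN _).1 (inv_mem hc))
      rwa [← mul_assoc, ← mul_assoc, ← commutatorElement_def] at this
    have hub : ⁅u, b⁆ ∈ D.U := by
      have := mul_mem hu ((Subgroup.mem_normalizer_iff.1 (D.B_norm_U hb) _).1 (inv_mem hu))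
      rwa [← mul_assoc, ← mul_assoc, ← commutatorElement_def] at this
    have hcbb : ⁅⁅c, b⁆, b⁆ ∈ N := by
      have := mul_mem hcb ((Subgroup.mem_normalizer_iff.1 hbN _).1 (inv_mem hcb))
      rwa [← mul_assoc, ← mul_assoc, ← commutatorElement_def] at this
    have e1 : ⁅u * c, b⁆ = ⁅u, b⁆ * ⁅c, b⁆ := by
      rw [show ⁅u * c, b⁆ = u * ⁅c, b⁆ * u⁻¹ * ⁅u, b⁆ by simp only [commutatorElement_def]; group,
        D.V_comm (D.U_le hu) hcb.1, mul_inv_cancel_right, D.V_comm hcb.1 (D.U_le hub)]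
    rw [e1, show ⁅⁅u, b⁆ * ⁅c, b⁆, b⁆ = ⁅u, b⁆ * ⁅⁅c, b⁆, b⁆ * ⁅u, b⁆⁻¹ * ⁅⁅u, b⁆, b⁆ by
      simp only [commutatorElement_def]; group, hbQU u hu, mul_one, D.V_comm (D.U_le hub) hcbb.1,
      mul_inv_cancel_right]
    exact hcbb
  -- the element `x` centralizes `Z`
  have hβx : ∀ q₁ ∈ D.Q, ∀ q₂ ∈ D.Q, x * ⁅q₁, q₂⁆ * x⁻¹ = ⁅q₁, q₂⁆ := by
    intro q₁ h₁ q₂ h₂
    have e : ∀ q : D.Q, D.act x (D.clQ q) = D.clQ q ^ j := fun q => by
      obtain ⟨w, hw, hwq⟩ := hxQ q q.2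
      show D.act x (D.cl _) = _
      rw [D.act_cl, ← map_zpow]
      show D.cl _ = D.cl _
      rw [D.cl_eq_iff]
      show (x * (q : G) * x⁻¹)⁻¹ * ((q ^ j : D.Q) : G) ∈ D.V
      rw [hwq, SubgroupClass.coe_zpow, mul_inv_rev, mul_assoc, inv_mul_cancel, mul_one]
      exact inv_mem hw
    have h := D.beta_act x (D.clQ ⟨q₁, h₁⟩) (D.clQ ⟨q₂, h₂⟩)
    have hβ : D.beta (D.clQ ⟨q₁, h₁⟩) (D.clQ ⟨q₂, h₂⟩) = ⁅q₁, q₂⁆ := D.beta_cl _ _
    rw [e, e, hβ] at h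
    rw [← h, ← hβ]
    rcases hij with ⟨-, rfl⟩ | ⟨-, rfl⟩
    · rw [zpow_one, zpow_one]
    · rw [zpow_neg_one, zpow_neg_one, D.beta_inv_left, D.beta_inv ((D.clQ ⟨q₂, h₂⟩)⁻¹) (D.clQ ⟨q₁, h₁⟩),
        D.beta_inv_left, inv_inv, ← D.beta_inv]
  have hxZ : ∀ z ∈ D.Z, x * z * x⁻¹ = z := by
    intro z hz
    suffices h : ⁅D.Q, D.Q⁆ ≤ Subgroup.centralizer ({x} : Set G) by
      have h1 := Subgroup.mem_centralizer_singleton_iff.1 (h (D.Z_eq hz))
      rw [← h1, mul_inv_cancel_right]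
    rw [Subgroup.commutator_le]
    intro q₁ h₁ q₂ h₂
    rw [Subgroup.mem_centralizer_singleton_iff]
    have := hβx q₁ h₁ q₂ h₂
    rw [mul_inv_eq_iff_eq_mul] at this
    exact this.symm
  -- compare
  have hv0 := hv0V q hq
  obtain ⟨u, hu, z, hz, huz⟩ := D.Q_inf_V _ (hQb b hb _ (hQb b hb q hq)) hv0
  obtain ⟨w, hw, hwq⟩ := hxQ q hq
  have hlhs : ⁅⁅q ^ j * w, b⁆, b⁆ = u ^ i * z := by
    rw [← hwq]
    have hxb' : x⁻¹ * b * x = b := by nth_rw 1 [← hbx]; group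
    calc ⁅⁅x * q * x⁻¹, b⁆, b⁆ = ⁅⁅x * q * x⁻¹, x * b * x⁻¹⁆, x * b * x⁻¹⁆ := by rw [hbx]
      _ = x * ⁅⁅q, b⁆, b⁆ * x⁻¹ := by rw [conjugate_commutatorElement, conjugate_commutatorElement]
      _ = x * u * x⁻¹ * (x * z * x⁻¹) := by rw [huz]; group
      _ = u ^ i * z := by rw [hxU u hu, hxZ z hz]
  have hrhs : ∃ m ∈ N, ⁅⁅q ^ j * w, b⁆, b⁆ = m * (u * z) ^ j := by
    have hwb : ⁅w, b⁆ ∈ D.V := by
      have := mul_mem hw (D.normal_V.conj_mem _ (inv_mem hw) b)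
      rwa [← mul_assoc, ← mul_assoc, ← commutatorElement_def] at this
    have hqj : q ^ j ∈ D.Q := zpow_mem hq j
    have e1 : ⁅q ^ j * w, b⁆ = ⁅w, b⁆ * ⁅q ^ j, b⁆ := by
      rw [show ⁅q ^ j * w, b⁆ = q ^ j * ⁅w, b⁆ * (q ^ j)⁻¹ * ⁅q ^ j, b⁆ by simp only [commutatorElement_def]; group,
        ← D.V_central _ hwb _ (D.Q_le hqj), mul_inv_cancel_right]
    have e2 : ⁅⁅q ^ j * w, b⁆, b⁆ = ⁅⁅w, b⁆, b⁆ * ⁅⁅q ^ j, b⁆, b⁆ := by
      have h2 := hv0V _ hqj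
      rw [e1, show ⁅⁅w, b⁆ * ⁅q ^ j, b⁆, b⁆ = ⁅w, b⁆ * ⁅⁅q ^ j, b⁆, b⁆ * ⁅w, b⁆⁻¹ * ⁅⁅w, b⁆, b⁆ by
        simp only [commutatorElement_def]; group, D.V_comm hwb h2, mul_inv_cancel_right,
        D.V_comm h2 (hVN w hw).1]
    rcases hij with ⟨-, rfl⟩ | ⟨-, rfl⟩
    · exact ⟨_, hVN w hw, by rw [e2, zpow_one, zpow_one, huz]⟩
    · rw [zpow_neg_one] at hqj e2 ⊢
      set y := ⁅q, b⁆ with hy
      have hyQ := hQb b hb q hq
      set zc := ⁅q⁻¹, y⁻¹⁆ with hzc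
      have hzcZ : zc ∈ D.Z := D.comm_mem_Z _ (inv_mem hq) _ (inv_mem hyQ)
      have e3 : ⁅q⁻¹, b⁆ = zc * y⁻¹ := by rw [hzc, hy]; simp only [commutatorElement_def]; group
      have hzb : ⁅zc, b⁆ ∈ N := by
        have := mul_mem (hZN hzcZ) ((Subgroup.mem_normalizer_iff.1 hbN _).1 (inv_mem (hZN hzcZ)))
        rwa [← mul_assoc, ← mul_assoc, ← commutatorElement_def] at this
      have e4 : ⁅y⁻¹, b⁆ = ⁅y, b⁆⁻¹ := by
        rw [show ⁅y⁻¹, b⁆ = y⁻¹ * ⁅y, b⁆⁻¹ * y⁻¹⁻¹ by simp only [commutatorElement_def]; group,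
          ← D.V_central _ (inv_mem hv0) _ (D.Q_le (inv_mem hyQ)), mul_inv_cancel_right]
      have e5 : ⁅⁅q⁻¹, b⁆, b⁆ = ⁅zc, b⁆ * ⁅y, b⁆⁻¹ := by
        rw [e3, show ⁅zc * y⁻¹, b⁆ = zc * ⁅y⁻¹, b⁆ * zc⁻¹ * ⁅zc, b⁆ by simp only [commutatorElement_def]; group,
          e4, D.V_comm (D.Z_le hzcZ) (inv_mem hv0), mul_inv_cancel_right, D.V_comm (inv_mem hv0) hzb.1]
      exact ⟨_, mul_mem (hVN w hw) hzb, by rw [e2, e5, ← huz, zpow_neg_one, mul_assoc]⟩
  obtain ⟨m, hm, hm'⟩ := hrhs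
  rw [hlhs] at hm'
  have hkey : u ^ (i - j) ∈ N := by
    have huV := D.U_le hu
    have hzV := D.Z_le hz
    have hc : Commute u z := D.V_comm huV hzV
    rw [hc.mul_zpow j] at hm'
    have hmu : Commute (u ^ j) m := D.V_comm (zpow_mem huV j) hm.1
    have h2 : u ^ i = u ^ j * (m * z ^ j * z⁻¹) := by
      rw [← mul_assoc, ← mul_assoc, hmu.eq, mul_assoc m, ← hm', mul_inv_cancel_right]
    have h3 : u ^ (i - j) = m * z ^ j * z⁻¹ := by
      rw [sub_eq_neg_add, zpow_add, h2, zpow_neg, inv_mul_cancel_left]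
    rw [h3]
    exact mul_mem (mul_mem hm (zpow_mem (hZN hz) j)) (inv_mem (hZN hz))
  have hu1 : u = 1 := by
    have h := D.U_inf_centralizer (zpow_mem hu (i - j)) hkey.2
    have h3 := D.V_pow u (D.U_le hu)
    rw [pow_succ, pow_two] at h3
    rcases hij with ⟨rfl, rfl⟩ | ⟨rfl, rfl⟩ <;> norm_num at h
    · apply inv_injective
      rw [inv_one]
      calc u⁻¹ = u * u := inv_eq_of_mul_eq_one_left (by rw [h3])
        _ = 1 := by rw [← pow_two]; simpa using h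
    · calc u = (u * u)⁻¹ := eq_inv_of_mul_eq_one_left (by rw [← mul_assoc, h3])
        _ = 1 := by rw [← pow_two]; simpa using h
  rw [huz, hu1, one_mul]
  exact hz

end Exc

end CfsgLib.BaumannBlock.CentModule
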