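import Mathlib
import Cfsg.Agent.BaumannBlock.CentModule.Separation

/-!
A conjugate of the central involution of an exceptional block by an element centralizing the module which
commutes with it on the section is equal to it.
-/

set_option autoImplicit false

open scoped MatrixGroups commutatorElement

namespace CfsgLib.BaumannBlock.CentModule

open Cfsg

variable {G : Type*} [Group G] {E B : Subgroup G} {F : Type} [Field F] (D : Exc E B F)

namespace Exc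

theorem mem_P_of_inverted {a : D.Ab} (h : D.τ a = a⁻¹) : a ∈ D.P := by
  have h2 := D.τ_sub a
  rw [h] at h2
  have h3 : a⁻¹ * a⁻¹ = a := by
    apply mul_left_cancel (a := a)
    apply mul_left_cancel (a := a)
    have := D.ab_pow a
    rw [pow_succ, pow_two, mul_assoc] at this
    rw [this]
    group
  rwa [h3] at h2

theorem act_eq_of_agree {φ χ : MulAut D.Ab} (hP : ∀ p ∈ D.P, φ p = χ p) (hA : ∀ a ∈ D.A0, φ a = χ a) :
    φ = χ := by
  refine MulEquiv.ext fun a => ?_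
  have hle : D.P ⊔ D.A0 ≤ MonoidHom.eqLocus φ.toMonoidHom χ.toMonoidHom := sup_le hP hA
  exact hle (D.mem_sup a)

theorem isPhi_congr {g h : G} {s : SL(2, F)} (hs : D.IsPhi g s) (he : D.act g = D.act h) : D.IsPhi h s := by
  intro p
  obtain ⟨h1, e1⟩ := hs p
  refine ⟨he ▸ h1, ?_⟩
  rw [← e1]
  congr 2
  exact Subtype.ext (DFunLike.congr_fun he.symm (p : D.Ab))

theorem act_congr {e e' : E} (h : D.ρ e = D.ρ e') : D.act (e : G) = D.act (e' : G) := by
  have h1 : D.ρ (e * e'⁻¹) = 1 := by rw [map_mul, map_inv, h, mul_inv_cancel]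
  have h2 := D.act_Q ((D.ρ_ker _).1 h1)
  rwa [Subgroup.coe_mul, Subgroup.coe_inv, map_mul, map_inv, mul_inv_eq_one] at h2

/-- An element of `E` acting on `U` as `-1`, with its action on conjugation. -/
theorem conj_U_of_ρU {e : E} (h : D.ρU e = -1) {u : G} (hu : u ∈ D.U) :
    (e : G) * u * (e : G)⁻¹ = u⁻¹ := by
  obtain ⟨u', hu', h'⟩ := D.mulVec_ψU e ⟨u, hu⟩
  rw [h, neg_mulVec] at h'
  have : u' = (⟨u, hu⟩ : D.U)⁻¹ := D.ψU_bij.1 (by
    rw [map_inv]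
    exact Multiplicative.toAdd.injective (by rw [toAdd_inv]; exact h'))
  rw [← hu', this]
  rfl

/-- Two elements of `E` inducing the same map on `U` agree modulo `Q`. -/
theorem ρU_eq_of_conj {e e' : E} (h : ∀ u ∈ D.U, (e : G) * u * (e : G)⁻¹ = (e' : G) * u * (e' : G)⁻¹) :
    D.ρU e = D.ρU e' := mulVec_injective fun x => by
  obtain ⟨u, hu⟩ := D.ψU_bij.2 (Multiplicative.ofAdd x)
  obtain ⟨u₁, h₁, v₁⟩ := D.mulVec_ψU e u
  obtain ⟨u₂, h₂, v₂⟩ := D.mulVec_ψU e' u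
  rw [hu] at v₁ v₂
  have : u₁ = u₂ := Subtype.ext (by rw [h₁, h₂, h u u.2])
  rw [this] at v₁
  exact v₁.symm.trans v₂

theorem mem_Q_of_centralizes_U {e : G} (he : e ∈ E) (hc : e ∈ Subgroup.centralizer (D.U : Set G)) : e ∈ D.Q := by
  refine (D.ρU_ker ⟨e, he⟩).1 ((D.ρU_eq_of_conj (e' := 1) fun u hu => ?_).trans (map_one _))
  show e * u * e⁻¹ = (1 : G) * u * (1 : G)⁻¹
  rw [← Subgroup.mem_centralizer_iff.1 hc u hu, mul_inv_cancel_right, one_mul, inv_one, mul_one]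

theorem act_B_commute_τ {b : G} (hb : b ∈ B) : Commute (D.act b) D.τ := by
  have hbE := D.B_norm_E hb
  have hbt : b * D.t * b⁻¹ ∈ E := (Subgroup.mem_normalizer_iff.1 hbE _).1 D.t_mem
  have hU : D.ρU ⟨_, hbt⟩ = D.ρU ⟨D.t, D.t_mem⟩ := D.ρU_eq_of_conj fun u hu => by
    show b * D.t * b⁻¹ * u * (b * D.t * b⁻¹)⁻¹ = D.t * u * D.t⁻¹
    have h' : b⁻¹ * u * b ∈ D.U := by
      simpa using (Subgroup.mem_normalizer_iff.1 (inv_mem (D.B_norm_U hb)) u).1 hu
    rw [D.conj_t_U hu]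
    calc b * D.t * b⁻¹ * u * (b * D.t * b⁻¹)⁻¹ = b * (D.t * (b⁻¹ * u * b) * D.t⁻¹) * b⁻¹ := by group
      _ = b * (b⁻¹ * u * b)⁻¹ * b⁻¹ := by rw [D.conj_t_U h']
      _ = u⁻¹ := by group
  have h1 : D.ρU (⟨_, hbt⟩ * (⟨D.t, D.t_mem⟩ : E)⁻¹) = 1 := by rw [map_mul, map_inv, hU, mul_inv_cancel]
  have h2 := D.act_Q ((D.ρU_ker _).1 h1)
  rw [Subgroup.coe_mul, Subgroup.coe_inv] at h2
  rw [map_mul, map_mul, map_mul, map_inv, map_inv] at h2
  show D.act b * D.act D.t = D.act D.t * D.act b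
  exact mul_inv_eq_iff_eq_mul.1 (mul_inv_eq_one.1 h2)

/-- No element separates the sections, in the form used below. -/
theorem not_sep [Finite G] [Finite F] {x : G} (hL : x ∈ D.L0) (hK : x ∈ D.KO)
    (h : (D.act x = 1 ∧ ∀ u ∈ D.U, x * u * x⁻¹ = u⁻¹) ∨
      (D.act x = D.τ ∧ ∀ u ∈ D.U, x * u * x⁻¹ = u)) : False := by
  obtain ⟨a, m, hm, ham⟩ := Nat.exists_eq_pow_mul_and_not_dvd (orderOf_pos x).ne' 2 (by norm_num)
  have hmo : Odd m := Nat.odd_iff.2 (by omega)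
  have hy2 : (x ^ m) ^ 2 ^ a = 1 := by rw [← pow_mul, mul_comm, ← ham, pow_orderOf_eq_one]
  rcases h with ⟨hact, hU⟩ | ⟨hact, hU⟩
  · refine D.not_separated ⟨a, hy2⟩ (pow_mem hL m) (pow_mem hK m) (i := -1) (j := 1) (Or.inl ⟨rfl, rfl⟩)
      (fun u hu => ?_) (fun q hq => ?_) (fun b _ => by rw [map_pow, hact, one_pow]; exact Commute.one_left _)
    · rw [zpow_neg_one]
      have hev : ∀ k : ℕ, x ^ (2 * k) * u * (x ^ (2 * k))⁻¹ = u := by
        intro k
        induction k with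
        | zero => simp
        | succ k ih =>
          calc x ^ (2 * (k + 1)) * u * (x ^ (2 * (k + 1)))⁻¹
              = x * (x * (x ^ (2 * k) * u * (x ^ (2 * k))⁻¹) * x⁻¹) * x⁻¹ := by
                rw [show 2 * (k + 1) = 2 * k + 1 + 1 by ring, pow_succ', pow_succ']; group
            _ = u := by rw [ih, hU u hu, hU _ (inv_mem hu), inv_inv]
      obtain ⟨k, hk⟩ := hmo
      calc x ^ m * u * (x ^ m)⁻¹ = x * (x ^ (2 * k) * u * (x ^ (2 * k))⁻¹) * x⁻¹ := by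
            rw [hk, pow_succ']; group
        _ = u⁻¹ := by rw [hev, hU u hu]
    · refine ⟨q⁻¹ * (x ^ m * q * (x ^ m)⁻¹), ?_, by rw [zpow_one, mul_inv_cancel_left]⟩
      have h1 : D.act (x ^ m) (D.cl ⟨q, D.Q_le_R hq⟩) = D.cl ⟨q, D.Q_le_R hq⟩ := by
        rw [map_pow, hact, one_pow, MulAut.one_apply]
      rw [D.act_cl, eq_comm, D.cl_eq_iff] at h1
      exact h1
  · have hact' : D.act (x ^ m) = D.τ := by
      obtain ⟨k, hk⟩ := hmo
      rw [map_pow, hact, hk, pow_succ, pow_mul, pow_two,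
        show D.τ * D.τ = 1 from MulEquiv.ext fun a => D.τ_apply a, one_pow, one_mul]
    refine D.not_separated ⟨a, hy2⟩ (pow_mem hL m) (pow_mem hK m) (i := 1) (j := -1) (Or.inr ⟨rfl, rfl⟩)
      (fun u hu => ?_) (fun q hq => ?_) (fun b hb => by rw [hact']; exact (D.act_B_commute_τ hb).symm)
    · rw [zpow_one]
      have hx : x ∈ Subgroup.centralizer ({u} : Set G) :=
        Subgroup.mem_centralizer_singleton_iff.2 (mul_inv_eq_iff_eq_mul.1 (hU u hu))
      rw [Subgroup.mem_centralizer_singleton_iff.1 (pow_mem hx m), mul_inv_cancel_right]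
    · refine ⟨q * (x ^ m * q * (x ^ m)⁻¹), ?_, by rw [zpow_neg_one, inv_mul_cancel_left]⟩
      have h1 := D.τ_of_mem_P (D.clQ_mem ⟨q, hq⟩)
      rw [← hact'] at h1
      change D.act (x ^ m) (D.cl ⟨q, D.Q_le_R hq⟩) = (D.cl ⟨q, D.Q_le_R hq⟩)⁻¹ at h1
      rw [D.act_cl, ← map_inv, eq_comm, D.cl_eq_iff] at h1
      simpa using h1

/-- Two subgroups of the inverted part spanning it and orthogonal: one is trivial. -/
theorem orth_split [Finite G] [Finite F] {X Y : Subgroup D.Ab} (hX : X ≤ D.P) (hY : Y ≤ D.P)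
    (hsup : D.P ≤ X ⊔ Y) (horth : ∀ x ∈ X, ∀ y ∈ Y, D.Orth x y) : X = ⊥ ∨ Y = ⊥ := by
  let img : Subgroup D.Ab → AddSubgroup (Fin 2 → F) := fun X => Subgroup.toAddSubgroup' ((X.subgroupOf D.P).map D.ψP)
  have hbot : ∀ X : Subgroup D.Ab, X ≤ D.P → img X = ⊥ → X = ⊥ := by
    intro X hX h
    refine (Subgroup.eq_bot_iff_forall _).2 fun x hx => ?_
    have hm : (D.ψP ⟨x, hX hx⟩).toAdd ∈ img X := ⟨⟨x, hX hx⟩, hx, rfl⟩
    rw [h, AddSubgroup.mem_bot] at hm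
    exact congrArg Subtype.val ((injective_iff_map_eq_one D.ψP).1 D.ψP_bij.1 _
      (Multiplicative.toAdd.injective hm))
  have hs : img X ⊔ img Y = ⊤ := by
    refine eq_top_iff.2 fun v _ => ?_
    obtain ⟨⟨p, hp⟩, hpv⟩ := D.ψP_bij.2 (Multiplicative.ofAdd v)
    have h1 : (⟨p, hp⟩ : D.P) ∈ X.subgroupOf D.P ⊔ Y.subgroupOf D.P := by
      rw [← Subgroup.subgroupOf_sup hX hY]
      exact hsup hp
    have h2 : D.ψP ⟨p, hp⟩ ∈ ((X.subgroupOf D.P).map D.ψP ⊔ (Y.subgroupOf D.P).map D.ψP) := by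
      rw [← Subgroup.map_sup]; exact ⟨_, h1, rfl⟩
    haveI : ((X.subgroupOf D.P).map D.ψP).Normal := inferInstance
    obtain ⟨a, ha, b, hb, hab⟩ := Subgroup.mem_sup.1 h2
    rw [hpv] at hab
    exact AddSubgroup.mem_sup.2 ⟨a.toAdd, ha, b.toAdd, hb, by rw [← toAdd_mul, hab]; rfl⟩
  have ho : ∀ x ∈ img X, ∀ y ∈ img Y, det2 x y = 0 := by
    rintro _ ⟨p, hp, rfl⟩ _ ⟨q, hq, rfl⟩
    exact D.det2_eq_zero_of_orth (horth _ hp _ hq)
  rcases eq_bot_or_of_det2 _ _ hs ho with h | h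
  · exact Or.inl (hbot X hX h)
  · exact Or.inr (hbot Y hY h)

theorem centralizer_le_normalizer {c : G} (hc : c ∈ Subgroup.centralizer (D.U : Set G)) :
    c ∈ Subgroup.normalizer (D.U : Set G) := Subgroup.centralizer_le_normalizer _ hc

theorem conj_eq_on_U {c : G} (hc : c ∈ Subgroup.centralizer (D.U : Set G)) {e u : G} (he : e ∈ E)
    (hu : u ∈ D.U) : c * e * c⁻¹ * u * (c * e * c⁻¹)⁻¹ = e * u * e⁻¹ := by
  have h1 : c⁻¹ * u * c = u := by
    rw [mul_assoc, Subgroup.mem_centralizer_iff.1 hc u hu, inv_mul_cancel_left]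
  have h2 : e * u * e⁻¹ ∈ D.U := (Subgroup.mem_normalizer_iff.1 (D.E_norm_U he) u).1 hu
  calc c * e * c⁻¹ * u * (c * e * c⁻¹)⁻¹ = c * (e * (c⁻¹ * u * c) * e⁻¹) * c⁻¹ := by group
    _ = c * (e * u * e⁻¹) * c⁻¹ := by rw [h1]
    _ = e * u * e⁻¹ := by rw [← Subgroup.mem_centralizer_iff.1 hc _ h2, mul_inv_cancel_right]

theorem conj_comm_mem_C2 {c : G} (hc : c ∈ Subgroup.centralizer (D.U : Set G)) {e : G} (he : e ∈ E) :
    c * e * c⁻¹ * e⁻¹ ∈ D.C2 := by
  have hL : c * e * c⁻¹ ∈ D.L0 := D.conj_mem_L0 (D.centralizer_le_normalizer hc) (D.E_le_L0 he)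
  have hKE : ∀ f ∈ E, f ∈ D.KO := fun f hf o ho => by
    have := inv_mem (D.OE o ho f hf)
    rw [commutatorElement_inv, commutatorElement_def] at this
    exact D.Q_le_R this
  refine D.mem_C2.2 ⟨Subgroup.mem_centralizer_iff.2 fun u hu => ?_, mul_mem hL (inv_mem (D.E_le_L0 he)),
    mul_mem (D.KO_normal.conj_mem _ (hKE e he) c) (inv_mem (hKE e he))⟩
  have h1 : e⁻¹ * u * e ∈ D.U := by
    simpa using (Subgroup.mem_normalizer_iff.1 (inv_mem (D.E_norm_U he)) u).1 hu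
  have h2 := D.conj_eq_on_U hc he h1
  have key : (c * e * c⁻¹ * e⁻¹) * u * (c * e * c⁻¹ * e⁻¹)⁻¹ = u := by
    calc (c * e * c⁻¹ * e⁻¹) * u * (c * e * c⁻¹ * e⁻¹)⁻¹
        = c * e * c⁻¹ * (e⁻¹ * u * e) * (c * e * c⁻¹)⁻¹ := by group
      _ = e * (e⁻¹ * u * e) * e⁻¹ := h2
      _ = u := by group
  exact (mul_inv_eq_iff_eq_mul.1 key).symm

set_option maxHeartbeats 1000000 in
/-- A conjugate of the involution by an element centralizing `U` that commutes with it on the section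
coincides with it there. -/
theorem eq_of_commute [Finite G] [Finite F] {c : G} (hc : c ∈ Subgroup.centralizer (D.U : Set G))
    (hcomm : Commute (D.act (c * D.t * c⁻¹)) D.τ) : D.act (c * D.t * c⁻¹) = D.τ := by
  haveI := D.char3
  set h := D.act c with hh
  set τ' := D.act (c * D.t * c⁻¹) with hτ'
  have hconj : τ' = h * D.τ * h⁻¹ := by rw [hτ', map_mul, map_mul, map_inv]; rfl
  have happ : ∀ a, τ' (h a) = h (D.τ a) := fun a => by
    rw [hconj, MulAut.mul_apply, MulAut.mul_apply, MulAut.inv_apply_self]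
  have hP' : ∀ a ∈ D.P, τ' (h a) = (h a)⁻¹ := fun a ha => by rw [happ, D.τ_of_mem_P ha, map_inv]
  have hτcomm : ∀ a, τ' (D.τ a) = D.τ (τ' a) := fun a => DFunLike.congr_fun hcomm.eq a
  set P' : Subgroup D.Ab := D.P.map h.toMonoidHom with hP'def
  have hmemP' : ∀ b, τ' b = b⁻¹ → b ∈ P' := by
    intro b hb
    obtain ⟨a, rfl⟩ := h.surjective b
    rw [happ, ← map_inv] at hb
    exact ⟨a, D.mem_P_of_inverted (h.injective hb), rfl⟩
  have hP'inv : ∀ b ∈ P', τ' b = b⁻¹ := by rintro _ ⟨a, ha, rfl⟩; exact hP' a ha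
  have hsub : ∀ b, τ' b * b⁻¹ ∈ P' := by
    intro b
    obtain ⟨a, rfl⟩ := h.surjective b
    refine ⟨D.τ a * a⁻¹, D.τ_sub a, ?_⟩
    show h (D.τ a * a⁻¹) = _
    rw [map_mul, map_inv, happ]
  have hτP' : ∀ b ∈ P', D.τ b ∈ P' := fun b hb => hmemP' _ (by rw [hτcomm, hP'inv b hb, map_inv])
  have hcN := D.centralizer_le_normalizer hc
  rcases D.orth_split (X := (P' ⊓ D.P).comap h.toMonoidHom ⊓ D.P) (Y := (P' ⊓ D.A0).comap h.toMonoidHom ⊓ D.P)
      inf_le_right inf_le_right (fun p hp => by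
        have hb : h p ∈ P' := ⟨p, hp, rfl⟩
        have h1 := D.mem_sup_of_invariant hτP' hb
        haveI : (P' ⊓ D.P).Normal := inferInstance
        obtain ⟨x, hx, y, hy, hxy⟩ := Subgroup.mem_sup_of_normal_left.1 h1
        obtain ⟨x', hx', hxe⟩ := (Subgroup.mem_inf.1 hx).1
        obtain ⟨y', hy', hye⟩ := (Subgroup.mem_inf.1 hy).1
        have hpe : x' * y' = p := h.injective (by
          rw [map_mul]; exact (congrArg₂ (· * ·) hxe hye).trans hxy)
        rw [← hpe]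
        refine mul_mem (Subgroup.mem_sup_left (Subgroup.mem_inf.2 ⟨?_, hx'⟩))
          (Subgroup.mem_sup_right (Subgroup.mem_inf.2 ⟨?_, hy'⟩))
        · show h.toMonoidHom x' ∈ P' ⊓ D.P; rw [hxe]; exact hx
        · show h.toMonoidHom y' ∈ P' ⊓ D.A0; rw [hye]; exact hy)
      (fun x hx y hy => by
        have h1 : D.Orth (h x) (h y) :=
          D.orth_P_A0 (Subgroup.mem_inf.1 (Subgroup.mem_inf.1 hx).1).2 (Subgroup.mem_inf.1 (Subgroup.mem_inf.1 hy).1).2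
        have h2 := D.orth_act (inv_mem hcN) h1
        rwa [map_inv, MulAut.inv_apply_self, MulAut.inv_apply_self] at h2) with hX | hY
  · -- the inverted part of the conjugate is fixed: the blocks would commute
    exfalso
    have hP'A : ∀ b ∈ P', b ∈ D.A0 := by
      intro b hb
      have h1 := D.mem_sup_of_invariant hτP' hb
      have hz : P' ⊓ D.P = ⊥ := by
        refine (Subgroup.eq_bot_iff_forall _).2 fun x hx => ?_
        obtain ⟨a, ha, rfl⟩ := (Subgroup.mem_inf.1 hx).1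
        have : a ∈ (⊥ : Subgroup D.Ab) := hX ▸ Subgroup.mem_inf.2 ⟨hx, ha⟩
        rw [Subgroup.mem_bot.1 this, map_one]
      rw [hz, bot_sup_eq] at h1
      exact (Subgroup.mem_inf.1 h1).2
    have hPfix : ∀ p ∈ D.P, τ' p = p := by
      intro p hp
      have h1 : τ' p ∈ D.P := D.mem_P_of_inverted (by rw [← hτcomm, D.τ_of_mem_P hp, map_inv])
      exact mul_inv_eq_one.1 (D.P_inf_A0 (mul_mem h1 (inv_mem hp)) (hP'A _ (hsub p)))
    have hfP : ∀ e : E, ∀ p ∈ D.P, D.act (c * (e : G) * c⁻¹) p = p := by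
      intro e p hp
      obtain ⟨a, rfl⟩ := h.surjective p
      have ha : a ∈ D.A0 := D.mem_A0.2 (h.injective (by rw [← happ, hPfix _ hp]))
      rw [map_mul, map_mul, map_inv, MulAut.mul_apply, MulAut.mul_apply, ← hh, MulAut.inv_apply_self,
        D.act_E_A0 e ha]
    have hfA : ∀ e : E, ∀ a ∈ D.A0, D.act (c * (e : G) * c⁻¹) a ∈ D.A0 := by
      intro e a ha
      have hm : D.act (c * (e : G) * c⁻¹) a * a⁻¹ ∈ P' := by
        obtain ⟨b, rfl⟩ := h.surjective a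
        refine ⟨D.act (e : G) b * b⁻¹, D.act_E_sub e b, ?_⟩
        show h (D.act (e : G) b * b⁻¹) = _
        rw [map_mul, map_mul, map_mul, map_inv, map_inv, MulAut.mul_apply, MulAut.mul_apply, ← hh,
          MulAut.inv_apply_self]
      simpa using mul_mem (hP'A _ hm) ha
    have hrange : ∀ g ∈ commutator SL(2, F), ∃ e : E, D.ρU e = g := fun g hg => by
      rw [← D.ρU_range] at hg; exact hg
    obtain ⟨e₁, he₁⟩ := hrange _ weylSL_mem
    obtain ⟨e₂, he₂⟩ := hrange _ quatJ_mem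
    set f := c * (e₂ : G) * c⁻¹ with hf
    have hfc : D.act (e₁ : G) * D.act f = D.act f * D.act (e₁ : G) := D.act_eq_of_agree
      (fun p hp => by
        rw [MulAut.mul_apply, MulAut.mul_apply, hfP e₂ p hp, hfP e₂ _ (D.act_mem_P (D.act_commute_E e₁) hp)])
      (fun a ha => by
        rw [MulAut.mul_apply, MulAut.mul_apply, D.act_E_A0 e₁ ha, D.act_E_A0 e₁ (hfA e₂ a ha)])
    have hfL : f ∈ D.L0 := D.conj_mem_L0 hcN (D.E_le_L0 e₂.2)
    have hKE : ∀ f ∈ E, f ∈ D.KO := fun f hf o ho => by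
      have := inv_mem (D.OE o ho f hf)
      rw [commutatorElement_inv, commutatorElement_def] at this
      exact D.Q_le_R this
    refine D.not_sep (x := (e₁ : G) * f * (e₁ : G)⁻¹ * f⁻¹)
      (mul_mem (mul_mem (mul_mem (D.E_le_L0 e₁.2) hfL) (inv_mem (D.E_le_L0 e₁.2))) (inv_mem hfL))
      (mul_mem (D.KO_normal.conj_mem _ (D.KO_normal.conj_mem _ (hKE _ e₂.2) c) (e₁ : G))
        (inv_mem (D.KO_normal.conj_mem _ (hKE _ e₂.2) c))) (Or.inl ⟨?_, fun u hu => ?_⟩)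
    · rw [map_mul, map_mul, map_mul, map_inv, map_inv, hfc, mul_inv_cancel_right, mul_inv_cancel]
    · have hw : ∀ w ∈ D.U, f * w * f⁻¹ = (e₂ : G) * w * (e₂ : G)⁻¹ := fun w hw => D.conj_eq_on_U hc e₂.2 hw
      have hcU : ∀ (g : E) (w : G), w ∈ D.U → (g : G) * w * (g : G)⁻¹ ∈ D.U := fun g w hw =>
        (Subgroup.mem_normalizer_iff.1 (D.E_norm_U g.2) w).1 hw
      have hfinv : f⁻¹ * u * f = (e₂ : G)⁻¹ * u * e₂ := by
        have h1 : (e₂ : G)⁻¹ * u * e₂ ∈ D.U := by simpa using hcU e₂⁻¹ u hu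
        have := hw _ h1
        rw [show (e₂ : G) * ((e₂ : G)⁻¹ * u * e₂) * (e₂ : G)⁻¹ = u by group, mul_inv_eq_iff_eq_mul] at this
        rw [mul_assoc, ← this, inv_mul_cancel_left]
      have hρ : D.ρU ⁅e₁, e₂⁆ = -1 := by rw [map_commutatorElement, he₁, he₂, commutator_weyl_quatJ]
      calc (e₁ : G) * f * (e₁ : G)⁻¹ * f⁻¹ * u * ((e₁ : G) * f * (e₁ : G)⁻¹ * f⁻¹)⁻¹
          = (e₁ : G) * (f * ((e₁ : G)⁻¹ * (f⁻¹ * u * f) * e₁) * f⁻¹) * (e₁ : G)⁻¹ := by group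
        _ = (e₁ : G) * (f * ((e₁ : G)⁻¹ * ((e₂ : G)⁻¹ * u * e₂) * e₁) * f⁻¹) * (e₁ : G)⁻¹ := by rw [hfinv]
        _ = (e₁ : G) * ((e₂ : G) * ((e₁ : G)⁻¹ * ((e₂ : G)⁻¹ * u * e₂) * e₁) * (e₂ : G)⁻¹) * (e₁ : G)⁻¹ := by
            rw [hw _ (by simpa using hcU e₁⁻¹ _ (by simpa using hcU e₂⁻¹ u hu))]
        _ = ((⁅e₁, e₂⁆ : E) : G) * u * ((⁅e₁, e₂⁆ : E) : G)⁻¹ := by
            rw [commutatorElement_def]; simp only [Subgroup.coe_mul, Subgroup.coe_inv]; group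
        _ = u⁻¹ := D.conj_U_of_ρU hρ hu
  · -- equal inverted parts
    have hP'P : P' ≤ D.P := by
      intro b hb
      have h1 := D.mem_sup_of_invariant hτP' hb
      have hz : P' ⊓ D.A0 = ⊥ := by
        refine (Subgroup.eq_bot_iff_forall _).2 fun x hx => ?_
        obtain ⟨a, ha, rfl⟩ := (Subgroup.mem_inf.1 hx).1
        have : a ∈ (⊥ : Subgroup D.Ab) := hY ▸ Subgroup.mem_inf.2 ⟨hx, ha⟩
        rw [Subgroup.mem_bot.1 this, map_one]
      rw [hz, sup_bot_eq] at h1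
      exact (Subgroup.mem_inf.1 h1).2
    have hPP : P' = D.P := Subgroup.eq_of_le_of_card_ge hP'P
      (Subgroup.card_map_of_injective h.injective).ge
    refine D.act_eq_of_agree (fun p hp => ?_) (fun a ha => ?_)
    · rw [D.τ_of_mem_P hp]; exact hP'inv p (hPP.symm ▸ hp)
    · rw [D.mem_A0.1 ha]
      have h1 : τ' a ∈ D.A0 := by rw [D.mem_A0, ← hτcomm, D.mem_A0.1 ha]
      exact mul_inv_eq_one.1 (D.P_inf_A0 (hP'P (hsub a)) (mul_mem h1 (inv_mem ha)))

end Exc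

end CfsgLib.BaumannBlock.CentModule
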